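import Mathlib
import Cfsg.Agent.OrthGeo.Eichler

/-!
Subgroups of a symplectic group in characteristic two containing a complement to the transvections
inside the radical of a point stabiliser: root elements and orbit moves.
-/

set_option autoImplicit false
set_option linter.unusedSectionVars false

namespace CfsgLib.SiegelTwo

open Module Matrix

variable {ι : Type} [Fintype ι] [DecidableEq ι] {F : Type*} [Field F]

/-- `L` contains the radical element at `p` with parameters `w`, `c`. -/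
def SIn (L : Subgroup (GL ι F)) (B : LinearMap.BilinForm F (ι → F)) (p w : ι → F) (c : F) : Prop :=
  ∃ g ∈ L, ∀ v, (g : Matrix ι ι F) *ᵥ v = v + B v p • w + (B v w + c * B v p) • p

/-- The orbit of `a`. -/
def Orb (L : Subgroup (GL ι F)) (a p : ι → F) : Prop := ∃ g ∈ L, (g : Matrix ι ι F) *ᵥ a = p

/-- The standing hypotheses. -/
structure Setting (L : Subgroup (GL ι F)) (B : LinearMap.BilinForm F (ι → F)) (a : ι → F) : Prop where
  two : (2 : F) = 0
  alt : ∀ v, B v v = 0
  nondeg : ∀ u, (∀ v, B u v = 0) → u = 0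
  iso : ∀ g ∈ L, ∀ u v, B ((g : Matrix ι ι F) *ᵥ u) ((g : Matrix ι ι F) *ᵥ v) = B u v
  a_ne : a ≠ 0
  rad : ∀ w, B w a = 0 → ∃ c, SIn L B a w c
  irr : ∀ u, u ≠ 0 → ∃ p, Orb L a p ∧ B p u ≠ 0

variable {L : Subgroup (GL ι F)} {B : LinearMap.BilinForm F (ι → F)} {a : ι → F}

theorem inv_apply (g : GL ι F) (v : ι → F) :
    ((g⁻¹ : GL ι F) : Matrix ι ι F) *ᵥ ((g : Matrix ι ι F) *ᵥ v) = v := by
  rw [Matrix.mulVec_mulVec, ← Units.val_mul, inv_mul_cancel, Units.val_one, Matrix.one_mulVec]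

theorem apply_inv (g : GL ι F) (v : ι → F) :
    (g : Matrix ι ι F) *ᵥ (((g⁻¹ : GL ι F) : Matrix ι ι F) *ᵥ v) = v := by
  rw [Matrix.mulVec_mulVec, ← Units.val_mul, mul_inv_cancel, Units.val_one, Matrix.one_mulVec]

theorem apply_ne_zero (g : GL ι F) {v : ι → F} (hv : v ≠ 0) : (g : Matrix ι ι F) *ᵥ v ≠ 0 := fun h =>
  hv (by rw [← inv_apply g v, h, Matrix.mulVec_zero])

variable (hS : Setting L B a)
include hS

theorem Setting.add_self (x : F) : x + x = 0 := by linear_combination x * hS.two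

theorem Setting.eq_of_add_eq_zero {x y : F} (h : x + y = 0) : x = y := by linear_combination h - y * hS.two

theorem Setting.neg_eq (x : F) : -x = x := by linear_combination -x * hS.two

theorem Setting.vadd_self (x : ι → F) : x + x = 0 := funext fun i => hS.add_self (x i)

theorem Setting.symm (u v : ι → F) : B u v = B v u := by
  have h := hS.alt (u + v)
  simp only [map_add, LinearMap.add_apply, hS.alt, zero_add, add_zero] at h
  exact hS.eq_of_add_eq_zero (by linear_combination h)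

theorem Setting.isSquare [Finite F] (x : F) : ∃ r, r ^ 2 = x := by
  have : CharP F 2 := CharTwo.of_one_ne_zero_of_two_eq_zero one_ne_zero hS.two
  exact ⟨_, (frobeniusEquiv F 2).apply_symm_apply x⟩

theorem Setting.bnd : B.Nondegenerate :=
  ⟨fun u h => hS.nondeg u h, fun u h => hS.nondeg u fun v => by rw [hS.symm]; exact h v⟩

theorem Setting.exists_sep {P : Submodule F (ι → F)} {c : ι → F} (hc : c ∉ P) :
    ∃ z, (∀ p ∈ P, B z p = 0) ∧ B z c = 1 := by
  obtain ⟨f, hf, hker⟩ := Submodule.exists_le_ker_of_notMem hc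
  obtain ⟨z, hz⟩ := (B.toDual hS.bnd).surjective ((f c)⁻¹ • f)
  have hzv : ∀ v, B z v = (f c)⁻¹ * f v := fun v => by
    rw [← LinearMap.BilinForm.toDual_def (b := hS.bnd), hz]; rfl
  exact ⟨z, fun p hp => by rw [hzv, show f p = 0 from hker hp, mul_zero],
    by rw [hzv, inv_mul_cancel₀ hf]⟩

theorem Setting.exists_perp_sep {p c : ι → F} (hc : c ∉ Submodule.span F {p}) :
    ∃ z, B z p = 0 ∧ B z c = 1 := by
  obtain ⟨z, h1, h2⟩ := hS.exists_sep hc
  exact ⟨z, h1 p (Submodule.mem_span_singleton_self p), h2⟩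

/-! ### Root elements -/

theorem Setting.sin_zero (p : ι → F) : SIn L B p 0 0 :=
  ⟨1, L.one_mem, fun v => by simp⟩

theorem Setting.sin_add {p w w' : ι → F} {c c' : F} (h : SIn L B p w c) (h' : SIn L B p w' c')
    (hw : B w p = 0) (hw' : B w' p = 0) : SIn L B p (w + w') (c + c' + B w w') := by
  obtain ⟨g, hg, hgv⟩ := h
  obtain ⟨g', hg', hgv'⟩ := h'
  refine ⟨g * g', L.mul_mem hg hg', fun v => ?_⟩
  rw [Units.val_mul, ← Matrix.mulVec_mulVec, hgv', hgv]
  simp only [map_add, map_smul, LinearMap.add_apply, LinearMap.smul_apply, smul_eq_mul, hw', hS.alt,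
    hS.symm p w, hw, hS.symm w' w]
  module

theorem Setting.sin_conj {p w : ι → F} {c : F} (h : SIn L B p w c) {g : GL ι F} (hg : g ∈ L) :
    SIn L B ((g : Matrix ι ι F) *ᵥ p) ((g : Matrix ι ι F) *ᵥ w) c := by
  obtain ⟨k, hk, hkv⟩ := h
  refine ⟨g * k * g⁻¹, L.mul_mem (L.mul_mem hg hk) (L.inv_mem hg), fun v => ?_⟩
  obtain ⟨y, rfl⟩ : ∃ y, v = (g : Matrix ι ι F) *ᵥ y := ⟨_, (apply_inv g v).symm⟩
  rw [Units.val_mul, Units.val_mul, ← Matrix.mulVec_mulVec, ← Matrix.mulVec_mulVec, inv_apply, hkv]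
  simp only [Matrix.mulVec_add, Matrix.mulVec_smul, hS.iso g hg]

theorem Setting.sin_smul (p w : ι → F) (r c : F) :
    SIn L B (r • p) w c ↔ SIn L B p (r • w) (r ^ 2 * c) := by
  refine exists_congr fun g => and_congr_right fun _ => forall_congr' fun v => ?_
  rw [show v + B v (r • p) • w + (B v w + c * B v (r • p)) • (r • p) =
      v + B v p • (r • w) + (B v (r • w) + r ^ 2 * c * B v p) • p by
    simp only [map_smul, smul_eq_mul]; module]

theorem Setting.sin_shift (p w : ι → F) (t c : F) : SIn L B p (w + t • p) c ↔ SIn L B p w c := by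
  refine exists_congr fun g => and_congr_right fun _ => forall_congr' fun v => ?_
  have h0 : B v p • (t • p) + (t * B v p) • p = 0 := by
    rw [smul_smul, mul_comm (B v p) t]; exact hS.vadd_self _
  rw [show v + B v p • (w + t • p) + (B v (w + t • p) + c * B v p) • p =
      v + B v p • w + (B v w + c * B v p) • p by
    simp only [map_add, map_smul, smul_eq_mul]; linear_combination (norm := module) h0]

theorem Setting.sin_unique_or {p w : ι → F} {c c' : F} (h : SIn L B p w c) (h' : SIn L B p w c')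
    (hw : B w p = 0) : SIn L B p 0 (c + c') := by
  simpa [hS.vadd_self, hS.alt] using hS.sin_add h h' hw hw

/-! ### The orbit -/

theorem Setting.orb_self : Orb L a a := ⟨1, L.one_mem, by simp⟩

theorem Setting.orb_apply {p : ι → F} (hp : Orb L a p) {g : GL ι F} (hg : g ∈ L) :
    Orb L a ((g : Matrix ι ι F) *ᵥ p) := by
  obtain ⟨k, hk, rfl⟩ := hp
  exact ⟨g * k, L.mul_mem hg hk, by rw [Units.val_mul, Matrix.mulVec_mulVec]⟩

theorem Setting.orb_move {p w x : ι → F} {c : F} (h : SIn L B p w c) (hx : Orb L a x) :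
    Orb L a (x + B x p • w + (B x w + c * B x p) • p) := by
  obtain ⟨g, hg, hgv⟩ := h
  rw [← hgv]
  exact hS.orb_apply hx hg

theorem Setting.orb_ne {p : ι → F} (hp : Orb L a p) : p ≠ 0 := by
  obtain ⟨g, _, rfl⟩ := hp
  exact apply_ne_zero g hS.a_ne

theorem Setting.rad_orb {p : ι → F} (hp : Orb L a p) {w : ι → F} (hw : B w p = 0) :
    ∃ c, SIn L B p w c := by
  obtain ⟨g, hg, rfl⟩ := hp
  obtain ⟨u, rfl⟩ : ∃ u, w = (g : Matrix ι ι F) *ᵥ u := ⟨_, (apply_inv g w).symm⟩
  rw [hS.iso g hg] at hw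
  obtain ⟨c, hc⟩ := hS.rad u hw
  exact ⟨c, hS.sin_conj hc hg⟩

theorem Setting.shear {p c : ι → F} (hp : Orb L a p) (hc : Orb L a c) (hpc : B c p = 0)
    (hind : c ∉ Submodule.span F {p}) (s : F) : Orb L a (c + s • p) := by
  obtain ⟨z, hzp, hzc⟩ := hS.exists_perp_sep hind
  obtain ⟨e, he⟩ := hS.rad_orb hp (w := s • z) (by simp [hzp])
  have := hS.orb_move he hc
  simpa [hpc, hS.symm c z, hzc] using this

theorem Setting.line_of_pair {p c : ι → F} (hp : Orb L a p) (hc : Orb L a c) (hpc : B c p = 0)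
    (hind : c ∉ Submodule.span F {p}) {r : F} (hr : r ≠ 0) : Orb L a (r • p) := by
  have hind' : p ∉ Submodule.span F {c} := fun h => by
    obtain ⟨t, rfl⟩ := Submodule.mem_span_singleton.1 h
    rcases eq_or_ne t 0 with rfl | ht
    · exact hS.orb_ne hp (by simp)
    · exact hind (Submodule.mem_span_singleton.2 ⟨t⁻¹, by rw [inv_smul_smul₀ ht]⟩)
  set c' := c + (r + 1) • p with hc'
  have h1 : Orb L a c' := hS.shear hp hc hpc hind _
  have hind1 : p ∉ Submodule.span F {c'} := fun h => by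
    obtain ⟨t, ht⟩ := Submodule.mem_span_singleton.1 h
    rcases eq_or_ne t 0 with rfl | ht0
    · exact hS.orb_ne hp (by simpa using ht.symm)
    · refine hind (Submodule.mem_span_singleton.2 ⟨t⁻¹ - (r + 1), ?_⟩)
      rw [sub_smul, inv_smul_eq_iff₀ ht0 |>.2 ht.symm, hc', add_sub_cancel_right]
  have h2 : Orb L a (p + (1 : F) • c') :=
    hS.shear h1 hp (by rw [hc', map_add, map_smul, hS.symm p c, hpc, hS.alt, smul_zero, add_zero]) hind1 1
  have e : p + (1 : F) • c' = r • p + c := by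
    rw [hc']
    linear_combination (norm := module) hS.vadd_self p
  rw [e] at h2
  have hd : r • p + c ∉ Submodule.span F {c} := fun h => by
    have h' := Submodule.sub_mem _ h (Submodule.mem_span_singleton_self c)
    rw [add_sub_cancel_right] at h'
    exact hind' ((Submodule.smul_mem_iff _ hr).1 h')
  have h3 := hS.shear hc h2 (by simp [hS.alt, hS.symm p c, hpc]) hd 1
  rwa [one_smul, add_assoc, hS.vadd_self, add_zero] at h3

theorem Setting.exists_nonorth {p : ι → F} (hp : p ≠ 0) : ∃ q, Orb L a q ∧ B q p ≠ 0 := hS.irr p hp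

end CfsgLib.SiegelTwo
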