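import Cfsg.Agent.Classical.SiegelTwo.Basic

/-!
If the group contains a transvection centred at a point of the orbit, it contains all transvections.
-/

set_option autoImplicit false
set_option linter.unusedSectionVars false

namespace CfsgLib.SiegelTwo

open Module Matrix

variable {ι : Type} [Fintype ι] [DecidableEq ι] {F : Type*} [Field F] [Finite F]
variable {L : Subgroup (GL ι F)} {B : LinearMap.BilinForm F (ι → F)} {a : ι → F}
variable (hS : Setting L B a)
include hS

theorem Setting.sin_zero_conj {δ : F} (h : SIn L B a 0 δ) {p : ι → F} (hp : Orb L a p) :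
    SIn L B p 0 δ := by
  obtain ⟨g, hg, rfl⟩ := hp
  simpa using hS.sin_conj h hg

theorem Setting.exists_pair_of_tv {δ : F} (hδ : δ ≠ 0) (h : SIn L B a 0 δ)
    (hdim : 4 ≤ Fintype.card ι) :
    ∃ p c, Orb L a p ∧ Orb L a c ∧ B c p = 0 ∧ c ∉ Submodule.span F {p} := by
  classical
  obtain ⟨b, hb, hba⟩ := hS.exists_nonorth hS.a_ne
  obtain ⟨w0, hw0a, hw0⟩ : ∃ w, B w a = 0 ∧ w ∉ Submodule.span F {a} := by
    by_contra hc
    push Not at hc
    have h1 := LinearMap.BilinForm.finrank_orthogonal hS.bnd (Submodule.span F {a})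
    have h2 : finrank F ↥(B.orthogonal (Submodule.span F {a})) ≤ finrank F ↥(Submodule.span F {a}) :=
      Submodule.finrank_mono fun w hw => hc w (by
        rw [hS.symm]; exact hw a (Submodule.mem_span_singleton_self a))
    rw [finrank_span_singleton hS.a_ne] at h1 h2
    rw [finrank_fintype_fun_eq_card] at h1
    omega
  obtain ⟨w, hw, hwa, hwz⟩ : ∃ w, w ∉ Submodule.span F {a} ∧ B w a = 0 ∧ SIn L B a w 0 := by
    by_contra hc
    push Not at hc
    choose f hf using fun t : F => hS.rad (t • w0) (by simp [hw0a])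
    have hperp : ∀ t : F, B (t • w0) a = 0 := fun t => by simp [hw0a]
    have hout : ∀ t : F, t ≠ 0 → t • w0 ∉ Submodule.span F {a} := fun t ht h =>
      hw0 ((Submodule.smul_mem_iff _ ht).1 h)
    -- a replacement of the value at zero
    let g : F → F := fun t => if t = 0 then 0 else f t
    have hg : ∀ t, SIn L B a (t • w0) (g t) := fun t => by
      by_cases ht : t = 0
      · simpa [g, ht] using hS.sin_zero a
      · simpa [g, ht] using hf t
    have hinj : Function.Injective g := fun t t' e => by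
      by_contra hne
      refine hc ((t + t') • w0) (hout _ fun h0 => hne (hS.eq_of_add_eq_zero h0)) (hperp _) ?_
      have := hS.sin_add (hg t) (hg t') (hperp t) (hperp t')
      simpa [← add_smul, e, hS.add_self, hS.alt] using this
    obtain ⟨t, ht⟩ := (Finite.injective_iff_surjective.1 hinj) δ
    have ht0 : t ≠ 0 := fun e => hδ (by rw [← ht]; simp [g, e])
    have := hS.sin_add (hg t) h (hperp t) (by simp)
    simp [ht, hS.add_self] at this
    exact hc _ (hout t ht0) (hperp t) this
  refine ⟨b, _, hb, hS.orb_move hwz hb, ?_, fun hm => ?_⟩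
  · simp only [map_add, map_smul, LinearMap.add_apply, LinearMap.smul_apply, hS.alt, zero_mul, add_zero,
      smul_eq_mul, zero_add, hS.symm w b, hS.symm a b]
    linear_combination (B b a * B b w) * hS.two
  · obtain ⟨t, ht⟩ := Submodule.mem_span_singleton.1 hm
    have h1 := congrArg (fun x => B x a) ht
    simp only [map_add, map_smul, LinearMap.add_apply, LinearMap.smul_apply, smul_eq_mul, hS.alt, hwa,
      mul_zero, add_zero] at h1
    have ht1 : t = 1 := mul_right_cancel₀ hba (by rw [one_mul, h1])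
    rw [ht1, one_smul, zero_mul, add_zero, add_assoc, left_eq_add] at ht
    refine hw (Submodule.mem_span_singleton.2 ⟨(B b a)⁻¹ * B b w, ?_⟩)
    rw [mul_smul, inv_smul_eq_iff₀ hba]
    rw [add_eq_zero_iff_eq_neg] at ht
    linear_combination (norm := module) -ht + hS.vadd_self (B b w • a)

/-- All transvections lie in the group. -/
theorem Setting.all_tv (hdim : 4 ≤ Fintype.card ι) {δ : F} (hδ : δ ≠ 0) (h : SIn L B a 0 δ)
    (x : ι → F) (c : F) : SIn L B x 0 c := by
  obtain ⟨p, q, hp, hq, hpq, hind⟩ := hS.exists_pair_of_tv hδ h hdim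
  have hscale : ∀ y, Orb L a y → ∀ r : F, r ≠ 0 → Orb L a (r • y) := by
    intro y hy r hr
    obtain ⟨k, hk, rfl⟩ := hy
    obtain ⟨g, hg, hga⟩ := hp
    obtain ⟨l, hl, hla⟩ := hS.line_of_pair ⟨g, hg, hga⟩ hq hpq hind hr
    refine ⟨k * g⁻¹ * l, L.mul_mem (L.mul_mem hk (L.inv_mem hg)) hl, ?_⟩
    rw [Units.val_mul, Units.val_mul, ← Matrix.mulVec_mulVec, ← Matrix.mulVec_mulVec, hla, ← hga,
      Matrix.mulVec_smul, inv_apply, Matrix.mulVec_smul]
  have hfull : ∀ y, Orb L a y → ∀ e : F, SIn L B y 0 e := by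
    intro y hy e
    by_cases he : e = 0
    · subst he; exact hS.sin_zero y
    obtain ⟨r, hr⟩ := hS.isSquare (e / δ)
    have hr0 : r ≠ 0 := fun h0 => by
      rw [h0, zero_pow two_ne_zero, eq_comm, div_eq_zero_iff] at hr
      exact hr.elim he hδ
    have := (hS.sin_smul y 0 r δ).1 (hS.sin_zero_conj h (hscale y hy r hr0))
    rwa [smul_zero, hr, div_mul_cancel₀ _ hδ] at this
  have hmove : ∀ p q, Orb L a p → Orb L a q → B q p ≠ 0 → ∀ x, B x p ≠ 0 → Orb L a x := by
    intro p q hp hq hqp x hx
    set r := B x p / B q p with hr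
    have hr0 : r ≠ 0 := div_ne_zero hx hqp
    set w := (B q p)⁻¹ • (r⁻¹ • x + q) with hw
    have hwp : B w p = 0 := by
      simp only [hw, map_add, map_smul, LinearMap.add_apply, LinearMap.smul_apply, smul_eq_mul]
      rw [show r⁻¹ * B x p = B q p by rw [hr]; field_simp, hS.add_self, mul_zero]
    obtain ⟨c, hc⟩ := hS.rad_orb hp hwp
    have h2 := hS.sin_add hc (hfull p hp (c + B q w / B q p)) hwp (by simp)
    rw [add_zero, map_zero, add_zero, ← add_assoc, hS.add_self, zero_add] at h2
    have h3 := hscale _ (hS.orb_move h2 hq) r hr0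
    rw [div_mul_cancel₀ _ hqp, hS.add_self, zero_smul, add_zero, hw, smul_inv_smul₀ hqp, smul_add,
      smul_add, smul_inv_smul₀ hr0, add_left_comm, hS.vadd_self, add_zero] at h3
    exact h3
  by_cases hx : x = 0
  · subst hx
    exact ⟨1, L.one_mem, fun v => by simp⟩
  obtain ⟨y, hy, hyx⟩ := hS.exists_nonorth hx
  obtain ⟨z, hz, hzy⟩ := hS.exists_nonorth (hS.orb_ne hy)
  exact hfull x (hmove y z hy hz hzy x (by rwa [hS.symm])) c

end CfsgLib.SiegelTwo
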