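import Cfsg.Agent.Classical.SiegelTwo.Form
import Cfsg.Agent.Classical.Orth.Residual
import Cfsg.Agent.OrthGeo.Parity

/-!
The good case: the group is the isometry group or its subgroup of even rank.
-/

set_option autoImplicit false
set_option linter.unusedSectionVars false

namespace CfsgLib.SiegelTwo

open Module Matrix

variable {ι : Type} [Fintype ι] [DecidableEq ι] {F : Type*} [Field F] [Finite F]
variable {L : Subgroup (GL ι F)} {B : LinearMap.BilinForm F (ι → F)} {a b : ι → F}
variable (hG : Good L B a b)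
include hG

local notation "Q" => qf L B a b
local notation "EG" => OrthGeo.eichlerGroup (Good.isQF hG)

theorem Good.singular_move {p u v : ι → F} (hp : Q p = 0) (huv : Q u = Q v) (h : B u p = B v p)
    (hne : B u p ≠ 0) : ∃ g ∈ EG, (g : Matrix ι ι F) *ᵥ u = v := by
  have hs := hG.setting
  set w := (B u p)⁻¹ • (u + v) with hw
  have hwp : B w p = 0 := by simp [hw, h, hs.add_self]
  have hwp' : OrthGeo.bform hG.isQF p w = 0 := by rw [hG.bform_eq, hs.symm]; exact hwp
  refine ⟨_, OrthGeo.eichler_mem_eichlerGroup hG.isQF hp hwp', ?_⟩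
  set t := B u w + Q w * B u p with ht
  have e : (OrthGeo.eichler hG.isQF hp hwp' : Matrix ι ι F) *ᵥ u = v + t • p := by
    rw [OrthGeo.eichler_mulVec hG.isQF, hG.bform_eq, hG.bform_eq, hs.symm w u, hs.symm p u, ht, hw,
      smul_inv_smul₀ hne]
    match_scalars
    · linear_combination (0 : F) * hs.two
    · linear_combination -(B u ((B u p)⁻¹ • (u + v))) * 0 - (Q ((B u p)⁻¹ • (u + v)) * B u p) * hs.two
    · linear_combination (-1 : F) * hs.two
  have h0 := OrthGeo.mem_isometryGroup.1 (OrthGeo.eichler_mem_isometryGroup hG.isQF hp hwp') u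
  rw [e, hG.q_add, hG.q_smul, hp, huv, map_smul, ← h, smul_eq_mul, mul_zero, add_zero,
    add_eq_left, mul_eq_zero, or_iff_left hne] at h0
  rw [e, h0, zero_smul, add_zero]

theorem Good.exists_zero_value (u : ι → F) {p : ι → F} (hp : Q p = 0) (hpu : B u p ≠ 0) :
    ∃ g ∈ EG, B ((g : Matrix ι ι F) *ᵥ u) a ≠ 0 := by
  classical
  have hs := hG.setting
  have hn := hG.isQF
  by_cases hua : B u a ≠ 0
  · exact ⟨1, one_mem _, by simpa using hua⟩
  push Not at hua
  have key : ∀ w, ∀ hw : B w p = 0, ∃ g ∈ EG, B ((g : Matrix ι ι F) *ᵥ u) a =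
      B u p * B w a + (B u w + Q w * B u p) * B p a := by
    intro w hw
    have hwp' : OrthGeo.bform hn p w = 0 := by rw [hG.bform_eq, hs.symm]; exact hw
    refine ⟨_, OrthGeo.eichler_mem_eichlerGroup hn hp hwp', ?_⟩
    rw [OrthGeo.eichler_mulVec hn, hG.bform_eq, hG.bform_eq, hs.symm w u, hs.symm p u]
    simp only [map_add, map_sub, map_smul, LinearMap.add_apply, LinearMap.sub_apply, LinearMap.smul_apply,
      smul_eq_mul, hua]
    linear_combination (-(B u p * B w a) - Q w * B u p * B p a) * hs.two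
  by_cases hpa : B p a = 0
  · obtain ⟨w, hw, hwa⟩ := hs.exists_perp_sep (p := p) (c := a) (fun hm => by
      obtain ⟨t, ht⟩ := Submodule.mem_span_singleton.1 hm
      rcases eq_or_ne t 0 with rfl | ht0
      · exact hs.a_ne (by simpa using ht.symm)
      · rw [← ht, map_smul, smul_eq_mul, mul_eq_zero] at hua
        exact hua.elim ht0 hpu)
    obtain ⟨g, hg, e⟩ := key w hw
    exact ⟨g, hg, by rw [e, hwa, hpa, mul_one, mul_zero, add_zero]; exact hpu⟩
  · -- a quadratic function of non-zero polar form takes a non-zero value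
    obtain ⟨z, hz0, hzp, hza⟩ := hs.exists_perp_two (p := p) (q := a) hG.dim
    obtain ⟨z', hz', hzz'⟩ := hs.exists_sep (P := Submodule.span F ({p, a} : Set (ι → F))) (c := z)
      (fun hm => by
        obtain ⟨s, t, rfl⟩ := Submodule.mem_span_pair.1 hm
        have hap : B a p ≠ 0 := by rwa [hs.symm]
        simp [hs.alt, hpa, hap] at hzp hza
        simp [hzp, hza] at hz0)
    have hz'p := hz' p (Submodule.subset_span (by simp))
    have hz'a := hz' a (Submodule.subset_span (by simp))
    by_contra hc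
    push Not at hc
    have hval : ∀ w, B w p = 0 → B w a = 0 → B u w + Q w * B u p = 0 := fun w hw hwa => by
      obtain ⟨g, hg, e⟩ := key w hw
      have := hc g hg
      rw [e, hwa, mul_zero, zero_add, mul_eq_zero] at this
      exact this.resolve_right hpa
    have h1 := hval (z' + z) (by simp [hz'p, hzp]) (by simp [hz'a, hza])
    rw [hG.q_add, map_add, hzz'] at h1
    have h2 : B u p = 0 := by
      linear_combination h1 - hval z hzp hza - hval z' hz'p hz'a
    exact hpu h2

theorem Good.plane_move {r : F} (hr0 : r ≠ 0) :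
    ∃ g ∈ EG, (g : Matrix ι ι F) *ᵥ (r • b + r⁻¹ • a) = b + a := by
  classical
  have hs := hG.setting
  by_cases hr1 : r = 1
  · exact ⟨1, one_mem _, by simp [hr1]⟩
  obtain ⟨v, hva, hvb, hv⟩ : ∃ v, B v a = 0 ∧ B v b = 0 ∧ Q v ≠ 0 := by
    obtain ⟨z, hz0, hza, hzb⟩ := hs.exists_perp_two (p := a) (q := b) hG.dim
    obtain ⟨z', hz', hzz'⟩ := hs.exists_sep (P := Submodule.span F ({a, b} : Set (ι → F))) (c := z)
      (fun hm => by
        obtain ⟨s, t, rfl⟩ := Submodule.mem_span_pair.1 hm
        simp [hs.alt, hG.hab, hG.hba] at hza hzb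
        simp [hza, hzb] at hz0)
    by_contra hc
    push Not at hc
    have hz'a := hz' a (Submodule.subset_span (by simp))
    have hz'b := hz' b (Submodule.subset_span (by simp))
    have := hc (z' + z) (by simp [hz'a, hza]) (by simp [hz'b, hzb])
    rw [hG.q_add, hc z hza hzb, hc z' hz'a hz'b, hzz', add_zero, zero_add] at this
    exact one_ne_zero this
  obtain ⟨x, hx⟩ := hs.isSquare (r / Q v)
  set p := a + r • b + x • v with hp
  have hap : B a v = 0 := by rw [hs.symm]; exact hva
  have hbp : B b v = 0 := by rw [hs.symm]; exact hvb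
  have hpQ : Q p = 0 := by
    rw [hp, hG.q_add, hG.q_add, hG.q_a, hG.q_smul, hG.q_b, hG.q_smul, hx, div_mul_cancel₀ _ hv]
    simp only [map_add, map_smul, LinearMap.add_apply, LinearMap.smul_apply, smul_eq_mul, hG.hab, hap, hbp]
    linear_combination r * hs.two
  refine hG.singular_move hpQ ?_ ?_ ?_
  · rw [hG.q_add, hG.q_add, hG.q_smul, hG.q_smul, hG.q_a, hG.q_b]
    simp [hG.hba, inv_mul_cancel₀ hr0]
  · simp only [hp, map_add, map_smul, LinearMap.add_apply, LinearMap.smul_apply, smul_eq_mul, hG.hab,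
      hG.hba, hs.alt, hap, hbp]
    field_simp
    ring
  · simp only [hp, map_add, map_smul, LinearMap.add_apply, LinearMap.smul_apply, smul_eq_mul, hG.hab,
      hG.hba, hs.alt, hap, hbp]
    field_simp
    ring_nf
    intro h
    rw [mul_inv_cancel₀ hr0, sq, mul_assoc, mul_inv_cancel₀ hr0, mul_one] at h
    exact hr1 (hs.eq_of_add_eq_zero h).symm

/-- The vectors of value one form one orbit. -/
theorem Good.exists_map_one {u : ι → F} (hu : Q u = 1) : ∃ g ∈ EG, (g : Matrix ι ι F) *ᵥ u = b + a := by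
  have hs := hG.setting
  obtain ⟨p, hp, hpu⟩ := hs.exists_nonorth (p := u) (fun h => by
    rw [h, OrthGeo.q_zero hG.isQF] at hu; exact zero_ne_one hu)
  rw [hs.symm] at hpu
  obtain ⟨g₁, hg₁, h₁⟩ := hG.exists_zero_value u (hG.orb_singular hp) hpu
  have hQ1 : Q ((g₁ : Matrix ι ι F) *ᵥ u) = 1 := by
    rw [OrthGeo.mem_isometryGroup.1 (OrthGeo.eichlerGroup_le_isometry hG.isQF hg₁) u, hu]
  set r := B ((g₁ : Matrix ι ι F) *ᵥ u) a
  obtain ⟨g₂, hg₂, h₂⟩ := hG.singular_move (u := (g₁ : Matrix ι ι F) *ᵥ u) (v := r • b + r⁻¹ • a)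
    hG.q_a (by
      rw [hQ1, hG.q_add, hG.q_smul, hG.q_smul, hG.q_a, hG.q_b]
      simp [hG.hba, inv_mul_cancel₀ h₁])
    (show r = _ by simp [hG.hba, hs.alt]) h₁
  obtain ⟨g₃, hg₃, h₃⟩ := hG.plane_move h₁
  refine ⟨g₃ * g₂ * g₁, mul_mem (mul_mem hg₃ hg₂) hg₁, ?_⟩
  rw [Units.val_mul, Units.val_mul, ← Matrix.mulVec_mulVec, ← Matrix.mulVec_mulVec, h₂, h₃]

theorem Good.q_center : Q (b + a) = 1 := by
  rw [hG.q_add, hG.q_a, hG.q_b, hG.hba]; simp

/-- The reflection at the vector `b + a`. -/
noncomputable def Good.rfl0 : GL ι F :=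
  OrthGeo.reflection hG.isQF (a := b + a) (by rw [hG.q_center]; exact one_ne_zero)

theorem Good.conj_rfl0 {u : ι → F} (hu : Q u ≠ 0) :
    ∃ g ∈ EG, OrthGeo.reflection hG.isQF hu = g * hG.rfl0 * g⁻¹ := by
  have hs := hG.setting
  obtain ⟨r, hr⟩ := hs.isSquare (Q u)⁻¹
  have hr0 : r ≠ 0 := fun e => hu (by simpa [e] using hr.symm)
  obtain ⟨g, hg, hgu⟩ := hG.exists_map_one (u := r • u) (by rw [hG.q_smul, hr, inv_mul_cancel₀ hu])
  refine ⟨g⁻¹, inv_mem hg, ?_⟩
  have hI := OrthGeo.eichlerGroup_le_isometry hG.isQF hg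
  rw [inv_inv, mul_assoc, eq_inv_mul_iff_mul_eq]
  refine OrthGeo.gl_ext fun x => ?_
  rw [Units.val_mul, Units.val_mul, ← Matrix.mulVec_mulVec, ← Matrix.mulVec_mulVec, Good.rfl0,
    OrthGeo.reflection_mulVec, OrthGeo.reflection_mulVec, hG.q_center, ← hgu,
    OrthGeo.isometry_b hG.isQF hI, Matrix.mulVec_sub, Matrix.mulVec_smul, Matrix.mulVec_smul,
    map_smul, LinearMap.smul_apply, smul_eq_mul, smul_smul]
  congr 2
  rw [← hr]; ring

theorem Good.rfl0_mem : hG.rfl0 ∈ Cfsg.isometryGroup F Q :=
  OrthGeo.reflection_mem hG.isQF _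

theorem Good.rfl0_sq : hG.rfl0 * hG.rfl0 = 1 :=
  Classical.Orth.reflection_mul_self hG.isQF _

theorem Good.cover {g : GL ι F} (hg : g ∈ Cfsg.isometryGroup F Q) : g ∈ EG ∨ hG.rfl0 * g ∈ EG := by
  set r := hG.rfl0 with hrdef
  have hrr : r * r = 1 := hG.rfl0_sq
  have hconj : ∀ e ∈ EG, r * e * r ∈ EG := fun e he => by
    have := OrthGeo.conj_mem_eichlerGroup hG.isQF hG.rfl0_mem he
    rwa [inv_eq_of_mul_eq_one_right hrr] at this
  let G₀ : Subgroup (GL ι F) :=
    { carrier := {g | g ∈ EG ∨ r * g ∈ EG}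
      one_mem' := Or.inl (one_mem _)
      mul_mem' := by
        rintro x y (hx | hx) (hy | hy)
        · exact Or.inl (mul_mem hx hy)
        · refine Or.inr ?_
          rw [show r * (x * y) = r * x * r * (r * y) by
            simp only [mul_assoc]; rw [← mul_assoc r r, hrr, one_mul]]
          exact mul_mem (hconj x hx) hy
        · exact Or.inr (by rw [← mul_assoc]; exact mul_mem hx hy)
        · refine Or.inl ?_
          rw [show x * y = r * (r * x) * r * (r * y) by
            simp only [mul_assoc]; rw [← mul_assoc r r, hrr, one_mul, ← mul_assoc r r, hrr, one_mul]]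
          exact mul_mem (hconj _ hx) hy
      inv_mem' := by
        rintro x (hx | hx)
        · exact Or.inl (inv_mem hx)
        · refine Or.inr ?_
          have := hconj _ (inv_mem hx)
          rwa [_root_.mul_inv_rev, inv_eq_of_mul_eq_one_right hrr, ← mul_assoc,
            mul_assoc _ r r, hrr, mul_one] at this }
  refine OrthGeo.isometry_mem_of_generators hG.isQF G₀ (fun u hu => ?_)
    (fun s s' hs' _ hw => Or.inl (OrthGeo.eichler_mem_eichlerGroup hG.isQF hs' hw)) hg
  obtain ⟨e, he, heu⟩ := hG.conj_rfl0 hu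
  refine Or.inr ?_
  rw [heu, ← mul_assoc, ← mul_assoc]
  exact mul_mem (hconj e he) (inv_mem he)

theorem Good.refl_not_mem (hr : hG.rfl0 ∉ EG) {u : ι → F} (hu : Q u ≠ 0) :
    OrthGeo.reflection hG.isQF hu ∉ EG := fun hm => by
  obtain ⟨e, he, heu⟩ := hG.conj_rfl0 hu
  rw [heu] at hm
  refine hr ?_
  simpa [mul_assoc] using mul_mem (mul_mem (inv_mem he) hm) he

theorem Good.singular_residual {g : GL ι F} (hg : g ∈ Cfsg.isometryGroup F Q)
    (hres : ∀ u ∈ Classical.Orth.residual g, Q u = 0) :
    g ∈ EG ∧ Even (finrank F (Classical.Orth.residual g)) := by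
  classical
  have hs := hG.setting
  have hn := hG.isQF
  have heven : ∀ g : GL ι F, g ∈ Cfsg.isometryGroup F Q → (∀ u ∈ Classical.Orth.residual g, Q u = 0) →
      Even (finrank F (Classical.Orth.residual g)) := by
    intro g hg hres
    set N : (ι → F) →ₗ[F] (ι → F) := Matrix.mulVecLin (1 - (g : Matrix ι ι F)) with hN
    have hNx : ∀ x, N x = x - (g : Matrix ι ι F) *ᵥ x := fun x => by simp [hN, Matrix.sub_mulVec]
    set β : LinearMap.BilinForm F (ι → F) := B.comp N LinearMap.id with hβ
    have h := OrthGeo.even_rank_of_alt _ β (fun x => by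
      show B (N x) x = 0
      rw [hNx, ← hG.bform_eq, Classical.Orth.q_sub_mulVec hn hg x]
      exact hres _ (Classical.Orth.sub_mem_residual g x)) rfl
    have hker : LinearMap.ker β = LinearMap.ker N := by
      ext x
      rw [LinearMap.mem_ker, LinearMap.mem_ker]
      refine ⟨fun h => hs.nondeg _ fun y => ?_, fun h => LinearMap.ext fun y => ?_⟩
      · exact LinearMap.congr_fun h y
      · show B (N x) y = 0
        simp [h]
    have := LinearMap.finrank_range_add_finrank_ker N
    rw [hker, show finrank F (ι → F) - finrank F (LinearMap.ker N) =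
      finrank F (LinearMap.range N) by omega] at h
    exact h
  refine ⟨?_, heven g hg hres⟩
  induction hk : finrank F (Classical.Orth.residual g) using Nat.strong_induction_on generalizing g with
  | _ k ih =>
    by_cases h1 : g = 1
    · exact h1 ▸ one_mem _
    obtain ⟨x, hx⟩ : ∃ x, x - (g : Matrix ι ι F) *ᵥ x ≠ 0 := by
      by_contra hc
      push Not at hc
      exact h1 (OrthGeo.gl_ext fun x => by rw [Units.val_one, Matrix.one_mulVec, ← sub_eq_zero.1 (hc x)])
    set N : (ι → F) → (ι → F) := fun x => x - (g : Matrix ι ι F) *ᵥ x with hN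
    have hQN : ∀ y, Q (N y) = 0 := fun y => hres _ (Classical.Orth.sub_mem_residual g y)
    have hadd : ∀ y z, N (y + z) = N y + N z := fun y z => by
      simp only [hN, Matrix.mulVec_add]; abel
    have hNN : ∀ y z, B (N y) (N z) = 0 := fun y z => by
      have h := hQN (y + z)
      rw [hadd, hG.q_add, hQN, hQN] at h
      simpa using h
    have hNy : ∀ y, B (N y) y = 0 := fun y => by
      rw [← hG.bform_eq, Classical.Orth.q_sub_mulVec hn hg y]
      exact hQN y
    have hgN : ∀ y, (g : Matrix ι ι F) *ᵥ y = y - N y := fun y => by simp [hN]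
    have hskew : ∀ y z, B (N y) z = B y (N z) := fun y z => by
      have h := hNy (y + z)
      rw [hadd] at h
      simp only [map_add, LinearMap.add_apply, hNy, zero_add, add_zero] at h
      exact (hs.eq_of_add_eq_zero h).symm.trans (hs.symm _ _)
    obtain ⟨z, hz⟩ : ∃ z, B (N z) x = 1 := by
      obtain ⟨y, hy⟩ : ∃ y, B (N x) y ≠ 0 := by
        by_contra hc
        push Not at hc
        exact hx (hs.nondeg _ hc)
      refine ⟨(B (N x) y)⁻¹ • y, ?_⟩
      rw [show N ((B (N x) y)⁻¹ • y) = (B (N x) y)⁻¹ • N y by simp [hN, Matrix.mulVec_smul, smul_sub],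
        map_smul, LinearMap.smul_apply, hskew y x, hs.symm y (N x), smul_eq_mul, inv_mul_cancel₀ hy]
    have hw : OrthGeo.bform hn (N x) (N z) = 0 := by rw [hG.bform_eq]; exact hNN x z
    set s := OrthGeo.eichler hn (hQN x) hw with hsdef
    have hsv : ∀ y, (s : Matrix ι ι F) *ᵥ y =
        y + B (N z) y • N x - B (N x) y • N z - (Q (N z) * B (N x) y) • N x := fun y => by
      rw [hsdef, OrthGeo.eichler_mulVec hn, hG.bform_eq, hG.bform_eq]
    have hsx : (s : Matrix ι ι F) *ᵥ x = (g : Matrix ι ι F) *ᵥ x := by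
      rw [hsv, hz, hNy, hgN]
      simp only [one_smul, zero_smul, mul_zero, sub_zero]
      exact funext fun i => by
        simp only [Pi.add_apply, Pi.sub_apply]
        linear_combination (N x i) * hs.two
    have hsI : s ∈ Cfsg.isometryGroup F Q := OrthGeo.eichler_mem_isometryGroup hn _ _
    have hI : s⁻¹ * g ∈ Cfsg.isometryGroup F Q := mul_mem (inv_mem hsI) hg
    have hfix : Classical.Orth.fixedSpace g < Classical.Orth.fixedSpace (s⁻¹ * g) := by
      refine SetLike.lt_iff_le_and_exists.2 ⟨fun y hy => ?_, x, ?_, ?_⟩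
      · rw [Classical.Orth.mem_fixedSpace] at hy ⊢
        have hN0 : N y = 0 := by simp [hN, hy]
        have hsy : (s : Matrix ι ι F) *ᵥ y = y := by
          rw [hsv, hskew z y, hskew x y, hN0]; simp
        rw [Units.val_mul, ← Matrix.mulVec_mulVec, hy]
        conv_lhs => rw [← hsy]
        rw [OrthGeo.inv_mulVec_cancel]
      · rw [Classical.Orth.mem_fixedSpace, Units.val_mul, ← Matrix.mulVec_mulVec, ← hsx,
          OrthGeo.inv_mulVec_cancel]
      · rw [Classical.Orth.mem_fixedSpace]
        exact fun h => hx (by rw [h, sub_self])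
    have hlt := Submodule.finrank_lt_finrank_of_lt hfix
    have e1 := Classical.Orth.finrank_residual_add g
    have e2 := Classical.Orth.finrank_residual_add (s⁻¹ * g)
    have hle : Classical.Orth.residual (s⁻¹ * g) ≤ Classical.Orth.residual g := by
      rw [Classical.Orth.residual_eq_perp hn hI, Classical.Orth.residual_eq_perp hn hg]
      exact OrthGeo.perp_anti hn hfix.le
    have := ih _ (by omega) hI (fun u hu => hres u (hle hu)) rfl
    have h2 := mul_mem (OrthGeo.eichler_mem_eichlerGroup hn (hQN x) hw) this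
    rwa [← hsdef, mul_inv_cancel_left] at h2

theorem Good.mem_iff_even (hr : hG.rfl0 ∉ EG) {g : GL ι F} (hg : g ∈ Cfsg.isometryGroup F Q) :
    g ∈ EG ↔ Even (finrank F (Classical.Orth.residual g)) := by
  induction hk : finrank F (Classical.Orth.residual g) using Nat.strong_induction_on generalizing g with
  | _ k ih =>
    subst hk
    by_cases hres : ∀ u ∈ Classical.Orth.residual g, Q u = 0
    · exact iff_of_true (hG.singular_residual hg hres).1 (hG.singular_residual hg hres).2
    push Not at hres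
    obtain ⟨v, hv, hQv⟩ := hres
    have hd := Classical.Orth.finrank_residual_reflection_mul_of_mem hG.isQF hg hQv hv
    have hI := mul_mem (OrthGeo.reflection_mem hG.isQF hQv) hg
    rw [← hd, Nat.even_add_one, ← ih _ (by omega) hI rfl]
    constructor
    · intro he hm
      exact hG.refl_not_mem hr hQv (by simpa using mul_mem hm (inv_mem he))
    · intro hne
      obtain ⟨e, he, heu⟩ := hG.conj_rfl0 hQv
      have hrv : OrthGeo.reflection hG.isQF hQv * hG.rfl0 ∈ EG := by
        rw [heu, mul_assoc, mul_assoc]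
        refine mul_mem he ?_
        have h := OrthGeo.conj_mem_eichlerGroup hG.isQF hG.rfl0_mem (inv_mem he)
        rwa [inv_eq_of_mul_eq_one_right hG.rfl0_sq, mul_assoc] at h
      rcases hG.cover hg with hge | hge
      · exact hge
      · refine absurd ?_ hne
        have := mul_mem hrv hge
        rwa [mul_assoc, ← mul_assoc hG.rfl0, hG.rfl0_sq, one_mul] at this

theorem rank_sub_one (g : GL ι F) :
    ((g : Matrix ι ι F) - 1).rank = finrank F (Classical.Orth.residual g) := by
  have h : Matrix.mulVecLin ((g : Matrix ι ι F) - 1) = -Matrix.mulVecLin (1 - (g : Matrix ι ι F)) :=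
    LinearMap.ext fun x => by simp [Matrix.sub_mulVec]
  rw [Classical.Orth.residual, Matrix.rank, h, LinearMap.range_neg]

/-- The conclusion in the good case. -/
theorem Good.classify : L = Cfsg.isometryGroup F Q ∨
    ∀ g : GL ι F, g ∈ L ↔ g ∈ Cfsg.isometryGroup F Q ∧ Even ((g : Matrix ι ι F) - 1).rank := by
  have hE := hG.eichlerGroup_le
  by_cases hr : hG.rfl0 ∈ L
  · refine Or.inl (le_antisymm hG.le_isometry fun g hg => ?_)
    rcases hG.cover hg with h | h
    · exact hE h
    · have := L.mul_mem hr (hE h)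
      rwa [← mul_assoc, hG.rfl0_sq, one_mul] at this
  refine Or.inr fun g => ?_
  rw [rank_sub_one hG]
  constructor
  · intro hg
    refine ⟨hG.le_isometry hg, ?_⟩
    rw [← hG.mem_iff_even (fun h => hr (hE h)) (hG.le_isometry hg)]
    rcases hG.cover (hG.le_isometry hg) with h | h
    · exact h
    · refine absurd ?_ hr
      have := L.mul_mem (hE h) (L.inv_mem hg)
      rwa [mul_inv_cancel_right] at this
  · rintro ⟨hg, he⟩
    exact hE ((hG.mem_iff_even (fun h => hr (hE h)) hg).2 he)

end CfsgLib.SiegelTwo
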