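import Mathlib
import Cfsg.Agent.SmallPerm.DegreeSix

/-! Subgroups of small index of the symmetric group of degree six. -/

set_option autoImplicit false

namespace CfsgLib.SiegelTwo

open Equiv MulAction

theorem six_large_subgroup (H : Subgroup (Equiv.Perm (Fin 6))) (hbig : 88 ≤ Nat.card H) (h4 : 4 ∣ Nat.card H) :
    H = ⊤ ∨ Nonempty (↥H ≃* ↥(alternatingGroup (Fin 6))) ∨ Nonempty (↥H ≃* Equiv.Perm (Fin 5)) := by
  have h720 : Nat.card (Equiv.Perm (Fin 6)) = 720 := by rw [Nat.card_perm, Nat.card_fin]; decide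
  have hmul := Subgroup.card_mul_index H
  rw [h720] at hmul
  have hk0 : H.index ≠ 0 := fun h => by rw [h] at hmul; omega
  have hk : H.index ≤ 8 := by
    by_contra hc
    have : 88 * 9 ≤ Nat.card H * H.index := Nat.mul_le_mul hbig (by omega)
    omega
  obtain ⟨ψ, x, hker, hmem⟩ := SmallPerm.exists_coset_hom H rfl
  haveI : IsSimpleGroup ↥(alternatingGroup (Fin 6)) := alternatingGroup.isSimpleGroup (by simp)
  have hdich : ψ.ker = ⊥ ∨ alternatingGroup (Fin 6) ≤ H := by
    have hn : (ψ.ker.subgroupOf (alternatingGroup (Fin 6))).Normal := inferInstance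
    rcases hn.eq_bot_or_eq_top with h | h
    · rw [Subgroup.subgroupOf_eq_bot] at h
      exact Or.inl (SmallPerm.perm_normal_eq_bot (by norm_num) ψ.ker (disjoint_iff.1 h))
    · rw [Subgroup.subgroupOf_eq_top] at h
      exact Or.inr (h.trans hker)
  rcases hdich with h | h
  · -- faithful on the cosets
    have hinj : Function.Injective ψ := (MonoidHom.ker_eq_bot_iff ψ).1 h
    have hle : 720 ≤ (H.index).factorial := by
      have := Nat.card_le_card_of_injective ψ hinj
      rwa [h720, Nat.card_perm, Nat.card_fin] at this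
    have hk6 : H.index = 6 := by
      obtain ⟨m, hm⟩ := h4
      generalize H.index = k at hk hk0 hmul hle
      interval_cases k <;> simp [Nat.factorial] at hle ⊢ <;> omega
    rw [hk6] at hmul
    have hbij : Function.Bijective ψ := (Nat.bijective_iff_injective_and_card ψ).2 ⟨hinj, by
      rw [h720, Nat.card_perm, Nat.card_fin, hk6]; decide⟩
    let e := MulEquiv.ofBijective ψ hbij
    have hmap : H.map (e : Equiv.Perm (Fin 6) →* Equiv.Perm (Fin H.index)) =
        MulAction.stabilizer (Equiv.Perm (Fin H.index)) x := by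
      ext g
      simp only [Subgroup.mem_map, MulAction.mem_stabilizer_iff]
      constructor
      · rintro ⟨y, hy, rfl⟩; exact (hmem y).1 hy
      · intro hg
        obtain ⟨y, rfl⟩ := e.surjective g
        exact ⟨y, (hmem y).2 hg, rfl⟩
    have e1 := (e.subgroupMap H).trans (MulEquiv.subgroupCongr hmap)
    have h5 : ∀ (j : ℕ) (y : Fin j), j = 6 →
        Nonempty (↥(MulAction.stabilizer (Equiv.Perm (Fin j)) y) ≃* Equiv.Perm (Fin 5)) := by
      rintro j y rfl
      exact SmallPerm.perm_stabilizer_equiv (n := 5) y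
    obtain ⟨e2⟩ := h5 _ x hk6
    exact Or.inr (Or.inr ⟨e1.trans e2⟩)
  · by_cases htop : H = ⊤
    · exact Or.inl htop
    refine Or.inr (Or.inl ⟨MulEquiv.subgroupCongr ?_⟩)
    have hA : Nat.card ↥(alternatingGroup (Fin 6)) = 360 := by
      rw [nat_card_alternatingGroup, Nat.card_fin]; decide
    refine (Subgroup.eq_of_le_of_card_ge h ?_).symm
    rw [hA]
    have hd : 360 ∣ Nat.card H := hA ▸ Subgroup.card_dvd_of_le h
    have hne : Nat.card H ≠ 720 := fun e => htop (Subgroup.eq_top_of_card_eq H (by rw [e, h720]))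
    have := Nat.le_of_dvd (by norm_num) (⟨H.index, hmul.symm⟩ : Nat.card H ∣ 720)
    omega

end CfsgLib.SiegelTwo
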