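import Cfsg.Agent.Classical.SiegelTwo.Frame

/-!
Four dimensions over two elements with a bad orthogonal pair: the orbit and the stabiliser are large.
-/

set_option autoImplicit false
set_option linter.unusedSectionVars false

namespace CfsgLib.SiegelTwo

open Module Matrix

variable {ι : Type} [Fintype ι] [DecidableEq ι] {F : Type*} [Field F] [Finite F]
variable {L : Subgroup (GL ι F)} {B : LinearMap.BilinForm F (ι → F)} {a : ι → F}
variable (hS : Setting L B a)
include hS

theorem Setting.exceptional (hN : NoTV L B a) (hι : Fintype.card ι = 4) (hF : Nat.card F = 2)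
    {p c : ι → F} (h : OPair L B a p c) (hbad : ¬ GPair L B p c) :
    (∃ y ∈ L, (y : Matrix ι ι F) *ᵥ a = a ∧ ∀ w : ι → F, ∀ e : F,
      ¬ ∀ v, (y : Matrix ι ι F) *ᵥ v = v + B v a • w + (B v w + e * B v a) • a) ∧
    11 ≤ {x | Orb L a x}.ncard := by
  classical
  have h2 : ∀ t : F, t = 0 ∨ t = 1 := fun t => by
    haveI := Fintype.ofFinite F
    rw [Nat.card_eq_fintype_card] at hF
    by_contra hc
    push Not at hc
    have : ({0, 1, t} : Finset F).card ≤ Fintype.card F := Finset.card_le_univ _
    rw [Finset.card_insert_of_notMem (by simp [hc.1.symm]), Finset.card_insert_of_notMem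
      (by simp [hc.2.symm]), Finset.card_singleton, hF] at this
    omega
  -- a bad pair at `a`
  obtain ⟨c, hac, hdc⟩ : ∃ c, OPair L B a a c ∧ par L B a c = 1 := by
    obtain ⟨g, hg, hga⟩ := h.1
    have h' := hS.opair_map h (L.inv_mem hg)
    rw [← hga, inv_apply] at h'
    refine ⟨_, h', (h2 _).resolve_left fun h0 => hbad (hS.gpair_two hN h2 h ?_)⟩
    have := hS.par_conj hN h'.1 h'.2.2.1 hg
    rw [apply_inv, hga] at this
    rwa [this]
  obtain ⟨-, hco, hca, hcind⟩ := hac
  have hac : OPair L B a a c := ⟨hS.orb_self, hco, hca, hcind⟩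
  have hca' : B a c = 0 := by rw [hS.symm]; exact hca
  refine ⟨?_, ?_⟩
  · obtain ⟨y, hy, hyv⟩ := hS.par_spec hco hca'
    refine ⟨y, hy, by rw [hyv, hS.alt, hca']; simp, fun w e hw => ?_⟩
    obtain ⟨v, hvc, hva⟩ := hS.exists_perp_sep (hS.opair_symm hac).2.2.2
    obtain ⟨v', hv'a, hv'c⟩ := hS.exists_perp_sep hcind
    have e1 := (hyv v).symm.trans (hw v)
    rw [hva, hvc] at e1
    have e2 := (hyv v').symm.trans (hw v')
    rw [hv'a, hv'c] at e2
    simp only [one_smul, zero_smul, mul_one, mul_zero, add_zero, zero_add] at e1 e2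
    have hcw : c = w + (B v w + e) • a := by linear_combination (norm := module) e1
    have hw' : B v' w = 1 := by
      have := congrArg (B v') hcw
      simpa [hv'c, hv'a] using this.symm
    rw [hw', one_smul] at e2
    have hz : par L B c a = 0 := by
      have e3 : par L B c a • c = 0 := by linear_combination (norm := module) e2
      exact (smul_eq_zero.1 e3).resolve_right (hS.orb_ne hco)
    have := hS.par_eq_of_gpair hN (hS.opair_symm hac) (hS.gpair_two hN h2 (hS.opair_symm hac) hz)
      (u := c) (hS.alt c) hca
    rw [hdc, show par L B c c = par L B c (0 + (1 : F) • c) by simp,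
      hS.par_shift hN hco (by simp), hS.par_zero hN hco] at this
    exact zero_ne_one this
  · obtain ⟨b, hb, hba0⟩ := hS.exists_nonorth hS.a_ne
    have hba : B b a = 1 := (h2 _).resolve_left hba0
    have hab : B a b = 1 := by rw [hS.symm, hba]
    set W : Set (ι → F) := {w | B w a = 0 ∧ B w b = 0} with hWdef
    let f : (ι → F) → (ι → F) := fun w => b + w + par L B a w • a
    have hf : ∀ w ∈ W, Orb L a (f w) := fun w hw => by
      have := hS.orb_move (hS.par_spec hS.orb_self hw.1) hb
      rwa [hba, one_smul, hS.symm b w, hw.2, zero_add, mul_one] at this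
    have hfa : ∀ w ∈ W, B (f w) a = 1 := fun w hw => by simp [f, hba, hw.1, hS.alt]
    -- the hyperplane
    set H : Submodule F (ι → F) := LinearMap.ker (B.flip a) with hH
    have hmemH : ∀ x, x ∈ H ↔ B x a = 0 := fun x => by rw [hH, LinearMap.mem_ker]; rfl
    have hHsurj : LinearMap.range (B.flip a) = ⊤ := LinearMap.range_eq_top.2 fun t =>
      ⟨t • b, by simp [hba]⟩
    have hHcard : (H : Set (ι → F)).ncard = 8 := by
      have h1 := LinearMap.finrank_range_add_finrank_ker (B.flip a)
      rw [hHsurj, finrank_top, finrank_self, finrank_fintype_fun_eq_card, hι] at h1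
      rw [← Nat.card_coe_set_eq]
      show Nat.card ↥H = 8
      rw [Module.natCard_eq_pow_finrank (K := F), hF, hH, show finrank F (LinearMap.ker (B.flip a)) = 3 by omega]
      norm_num
    have hWcard : W.ncard = 4 := by
      set K : Submodule F (ι → F) := LinearMap.ker ((B.flip a).prod (B.flip b)) with hK
      have h1 := LinearMap.finrank_range_add_finrank_ker ((B.flip a).prod (B.flip b))
      rw [LinearMap.range_eq_top.2 (fun t => ⟨t.1 • b + t.2 • a, by simp [hba, hab, hS.alt]⟩),
        finrank_top, finrank_prod, finrank_self, finrank_fintype_fun_eq_card, hι] at h1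
      rw [show W = (K : Set (ι → F)) by ext x; simp [hWdef, hK], ← Nat.card_coe_set_eq]
      show Nat.card ↥K = 4
      rw [Module.natCard_eq_pow_finrank (K := F), hF, hK, show finrank F
        (LinearMap.ker ((B.flip a).prod (B.flip b))) = 2 by omega]
      norm_num
    have hfinj : Set.InjOn f W := fun w hw w' hw' e => by
      have e1 := congrArg (fun x => B x b) e
      simp only [f, map_add, map_smul, LinearMap.add_apply, LinearMap.smul_apply, smul_eq_mul, hS.alt,
        hw.2, hw'.2, hab, zero_add, mul_one] at e1
      simp only [f, e1] at e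
      exact add_left_cancel (add_right_cancel e)
    -- the vector of the bad pair, moved
    set c' := c + B c b • a with hc'
    have hc'W : c' ∈ W := ⟨by simp [hc', hca, hS.alt], by simp [hc', hab, hS.add_self]⟩
    have hdc' : par L B a c' = 1 := by rw [hc', hS.par_shift hN hS.orb_self hca, hdc]
    have hc'o : Orb L a c' := hS.shear hS.orb_self hco hca hcind _
    have hWind : ∀ w ∈ W, w ≠ 0 → w ∉ Submodule.span F {a} := fun w hw hw0 =>
      hS.notMem_span (by rw [hab]; exact one_ne_zero) hw.2 hw0
    by_cases hz : ∃ z ∈ W, z ≠ 0 ∧ par L B a z = 0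
    · obtain ⟨z, hzW, hz0, hdz⟩ := hz
      have hzero : ∀ w ∈ W, w ≠ 0 → par L B a w = 0 → Orb L a w := by
        intro w hw hw0 hdw
        have h1 := hf w hw
        simp only [f, hdw, zero_smul, add_zero] at h1
        have := hS.shear hb h1 (by simp [hS.alt, hw.2]) (fun hm => hS.notMem_span
          (by rw [hba]; exact one_ne_zero) hw.1 hw0
          (by simpa using Submodule.sub_mem _ hm (Submodule.mem_span_singleton_self b))) 1
        rwa [one_smul, add_comm b w, add_assoc, hS.vadd_self, add_zero] at this
      have hc'0 : c' ≠ 0 := fun e => by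
        rw [e, hS.par_zero hN hS.orb_self] at hdc'
        exact zero_ne_one hdc'
      have hzc : z ≠ c' := fun e => by rw [e, hdc'] at hdz; exact one_ne_zero hdz
      have hsum0 : z + c' ≠ 0 := fun e =>
        hzc (by linear_combination (norm := module) e - hS.vadd_self c')
      have hsumW : z + c' ∈ W := ⟨by simp [hzW.1, hc'W.1], by simp [hzW.2, hc'W.2]⟩
      have hW4 : W = {0, z, c', z + c'} := by
        refine (Set.eq_of_subset_of_ncard_le ?_ ?_ (Set.toFinite _)).symm
        · rintro x (rfl | rfl | rfl | rfl)
          exacts [⟨by simp, by simp⟩, hzW, hc'W, hsumW]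
        · rw [hWcard, Set.ncard_insert_of_notMem (by simp [hz0.symm, hc'0.symm, hsum0.symm]) (Set.toFinite _),
            Set.ncard_insert_of_notMem (by simp [hzc, hc'0]) (Set.toFinite _),
            Set.ncard_insert_of_notMem (by simp [hz0]) (Set.toFinite _), Set.ncard_singleton]
      have hWall : ∀ w ∈ W, w ≠ 0 → Orb L a w := by
        intro w hw hw0
        have hBzc : B z c' = 1 := by
          refine (h2 _).resolve_left fun h0 => hz0 (hS.nondeg z fun x => ?_)
          set y := x + B x b • a + B x a • b with hy
          have hyW : y ∈ W := ⟨by simp [hy, hS.alt, hba, hS.add_self],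
            by simp [hy, hS.alt, hab, hS.add_self]⟩
          have hzy : B z y = B z x := by simp [hy, hzW.1, hzW.2]
          rw [← hzy]
          rw [hW4] at hyW
          rcases hyW with e | e | e | e <;> rw [e] <;> simp [hS.alt, h0]
        rw [hW4] at hw
        rcases hw with e | e | e | e
        · exact absurd e hw0
        · exact e ▸ hzero z hzW hz0 hdz
        · exact e ▸ hc'o
        · exact e ▸ hzero _ hsumW hsum0 (by
            rw [hS.par_add hN hS.orb_self hzW.1 hc'W.1, hdz, hdc', hBzc, zero_add, hS.add_self])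
      have hperp : ∀ x ∈ H, x ≠ 0 → Orb L a x := by
        intro x hx hx0
        rw [hmemH] at hx
        set w := x + B x b • a with hw
        have hwW : w ∈ W := ⟨by simp [hw, hx, hS.alt], by simp [hw, hab, hS.add_self]⟩
        have hxw : x = w + B x b • a := by rw [hw, add_assoc, hS.vadd_self, add_zero]
        by_cases hw0 : w = 0
        · rw [hw0, zero_add] at hxw
          have hxb : B x b = 1 := (h2 _).resolve_left fun h0 => hx0 (by rw [hxw, h0, zero_smul])
          rw [hxw, hxb, one_smul]
          exact hS.orb_self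
        · rw [hxw]
          exact hS.shear hS.orb_self (hWall w hwW hw0) hwW.1 (hWind w hwW hw0) _
      have hsub : f '' W ∪ ((H : Set (ι → F)) \ {0}) ⊆ {x | Orb L a x} := by
        rintro x (⟨w, hw, rfl⟩ | ⟨hx, hx0⟩)
        · exact hf w hw
        · exact hperp x hx hx0
      refine le_trans ?_ (Set.ncard_le_ncard hsub (Set.toFinite _))
      rw [Set.ncard_union_eq (Set.disjoint_left.2 fun x hx1 hx => by
          obtain ⟨w, hw, e⟩ := hx1
          have := (hmemH x).1 hx.1
          rw [← e, hfa w hw] at this
          exact one_ne_zero this) (Set.toFinite _) (Set.toFinite _), hfinj.ncard_image, hWcard,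
        Set.ncard_sdiff_singleton_of_mem H.zero_mem, hHcard]
    · push Not at hz
      -- a fifth vector opposite to `a`
      obtain ⟨x, hx, hxa, hxf⟩ : ∃ x, Orb L a x ∧ B x a = 1 ∧ ∀ w ∈ W, x ≠ f w := by
        by_contra hc
        push Not at hc
        obtain ⟨g, hg, hgb⟩ := hb
        set c₁ := c' + a with hc₁
        have hc₁o : Orb L a c₁ := by
          have := hS.shear hS.orb_self hc'o hc'W.1 (hWind c' hc'W (fun e => by
            rw [e, hS.par_zero hN hS.orb_self] at hdc'; exact zero_ne_one hdc')) 1
          rwa [one_smul] at this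
        have hTr : ∀ u v, B (((g⁻¹ : GL ι F) : Matrix ι ι F) *ᵥ u) v = B u ((g : Matrix ι ι F) *ᵥ v) :=
          fun u v => by rw [← hS.iso g hg, apply_inv]
        have h1 := hc _ (hS.orb_apply hS.orb_self (L.inv_mem hg)) (by rw [hTr, hgb, hab])
        have h1' := hc _ (hS.orb_apply hc₁o (L.inv_mem hg)) (by
          rw [hTr, hgb]; simp [hc₁, hc'W.2, hab])
        obtain ⟨w₁, hw₁, e₁⟩ := h1
        obtain ⟨w₂, hw₂, e₂⟩ := h1'
        have hzero : B (f w₁) (f w₂) = 0 := by
          rw [← e₁, ← e₂, hS.iso _ (L.inv_mem hg)]
          simp [hc₁, hS.symm a c', hc'W.1, hS.alt]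
        have hd : par L B a (w₁ + w₂) = B (f w₁) (f w₂) := by
          rw [hS.par_add hN hS.orb_self hw₁.1 hw₂.1]
          simp [f, hS.alt, hS.symm b w₂, hw₂.2, hw₁.2, hba, hab, hw₁.1, hS.symm a w₂, hw₂.1]
          ring
        have hsum : w₁ + w₂ = 0 := by
          by_contra hne
          exact hz _ ⟨by simp [hw₁.1, hw₂.1], by simp [hw₁.2, hw₂.2]⟩ hne (hd.trans hzero)
        have hw12 : w₁ = w₂ := by linear_combination (norm := module) hsum - hS.vadd_self w₂
        have hcc : a = c₁ := by
          have e := congrArg (fun y => (g : Matrix ι ι F) *ᵥ y) (e₁.trans (hw12 ▸ e₂.symm))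
          simpa [apply_inv] using e
        have hc'0 : c' = 0 := by linear_combination (norm := module) -hcc
        rw [hc'0, hS.par_zero hN hS.orb_self] at hdc'
        exact zero_ne_one hdc'
      have hT : ∀ y, B y a = 1 → Orb L a y := by
        intro y hy
        have key : ∀ v, B v a = 1 → ∃ w ∈ W, ∃ s : F, v = f w + s • a := by
          intro v hv
          refine ⟨v + b + B (v + b) b • a, ⟨by simp [hv, hba, hS.alt, hS.add_self],
            by simp [hab, hS.alt, hS.add_self]⟩, B (v + b) b + par L B a (v + b + B (v + b) b • a), ?_⟩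
          have h0 : ∀ t : F, t • a + t • a = 0 := fun t => hS.vadd_self _
          simp only [f]
          linear_combination (norm := module) -(h0 (B (v + b) b)) -
            (h0 (par L B a (v + b + B (v + b) b • a))) - hS.vadd_self b
        obtain ⟨w, hw, s, hys⟩ := key y hy
        obtain ⟨w₀, hw₀, s₀, hxs⟩ := key x hxa
        rcases h2 s with rfl | rfl
        · rw [hys, zero_smul, add_zero]; exact hf w hw
        have hs₀ : s₀ = 1 := (h2 s₀).resolve_left fun h0 => hxf w₀ hw₀ (by
          rw [hxs, h0, zero_smul, add_zero])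
        have hu : B (w + w₀) a = 0 := by simp [hw.1, hw₀.1]
        have hmv := hS.orb_move (hS.par_spec hS.orb_self hu) hx
        rw [hxa, one_smul, mul_one, hxs, hs₀] at hmv
        have hcoef : B (f w₀ + (1 : F) • a) (w + w₀) = B w₀ w := by
          simp [f, hS.symm b, hw.2, hw₀.2, hS.symm a, hw.1, hw₀.1, hS.alt]
        rw [hcoef, hS.par_add hN hS.orb_self hw.1 hw₀.1, hS.symm w w₀] at hmv
        have h0 : ∀ t : F, t • a + t • a = 0 := fun t => hS.vadd_self _
        rw [hys]
        simp only [f] at hmv ⊢
        convert hmv using 1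
        linear_combination (norm := module) -(h0 (par L B a w₀)) - (h0 (B w₀ w)) - hS.vadd_self w₀
      set T : Set (ι → F) := (fun h => b + h) '' (H : Set (ι → F)) with hTdef
      have hT1 : ∀ y ∈ T, B y a = 1 := by
        rintro _ ⟨y, hy, rfl⟩
        simp [hba, (hmemH y).1 hy]
      have hTcard : T.ncard = 8 := by
        rw [hTdef, Set.ncard_image_of_injective _ (add_right_injective b), hHcard]
      have hc'0 : c' ≠ 0 := fun e => by
        rw [e, hS.par_zero hN hS.orb_self] at hdc'
        exact zero_ne_one hdc'
      have hc₁o := hS.shear hS.orb_self hc'o hc'W.1 (hWind c' hc'W hc'0) 1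
      have hsub : T ∪ {a, c', c' + (1 : F) • a} ⊆ {x | Orb L a x} := by
        rintro y (hy | rfl | rfl | rfl)
        exacts [hT y (hT1 y hy), hS.orb_self, hc'o, hc₁o]
      refine le_trans ?_ (Set.ncard_le_ncard hsub (Set.toFinite _))
      rw [Set.ncard_union_eq (Set.disjoint_left.2 fun y hy hy' => by
        have := hT1 y hy
        rcases hy' with rfl | rfl | rfl <;> simp [hS.alt, hc'W.1] at this)
        (Set.toFinite _) (Set.toFinite _), hTcard]
      have h3 : ({a, c', c' + (1 : F) • a} : Set (ι → F)).ncard = 3 := by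
        have e1 : a ≠ c' := fun e => by
          have := hc'W.2
          rw [← e, hab] at this
          exact one_ne_zero this
        have e2 : a ≠ c' + (1 : F) • a := fun e => hc'0 (by
          linear_combination (norm := module) -e)
        have e3 : c' ≠ c' + (1 : F) • a := fun e => hS.a_ne (by
          linear_combination (norm := module) -e)
        rw [Set.ncard_insert_of_notMem (by simp only [Set.mem_insert_iff, Set.mem_singleton_iff, not_or]; exact ⟨e1, e2⟩)
          (Set.toFinite _), Set.ncard_pair e3]
      omega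

end CfsgLib.SiegelTwo
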