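import Cfsg.Agent.Classical.SiegelTwo.Frame
import Cfsg.Agent.OrthGeo.Generation

/-!
When all orthogonal pairs are good the group preserves a quadratic form polarising to the alternating
form and contains all its singular root elements.
-/

set_option autoImplicit false
set_option linter.unusedSectionVars false

namespace CfsgLib.SiegelTwo

open Module Matrix

variable {ι : Type} [Fintype ι] [DecidableEq ι] {F : Type*} [Field F]

/-- Projection onto the vectors perpendicular to `a` and `b`. -/
def proj (B : LinearMap.BilinForm F (ι → F)) (a b x : ι → F) : ι → F := x + B x b • a + B x a • b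

/-- The quadratic form attached to an opposite pair. -/
noncomputable def qf (L : Subgroup (GL ι F)) (B : LinearMap.BilinForm F (ι → F)) (a b x : ι → F) : F :=
  B x b * B x a + par L B a (proj B a b x)

variable [Finite F]
variable {L : Subgroup (GL ι F)} {B : LinearMap.BilinForm F (ι → F)} {a : ι → F}

/-- An opposite pair in a group all of whose orthogonal pairs are good. -/
structure Good (L : Subgroup (GL ι F)) (B : LinearMap.BilinForm F (ι → F)) (a b : ι → F) : Prop where
  setting : Setting L B a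
  noTV : NoTV L B a
  gp : ∀ p c, OPair L B a p c → GPair L B p c
  dim : 4 ≤ Fintype.card ι
  orb_b : Orb L a b
  hba : B b a = 1

variable {b : ι → F} (hG : Good L B a b)
include hG

local notation "Q" => qf L B a b

theorem Good.hab : B a b = 1 := by rw [hG.setting.symm]; exact hG.hba

theorem Good.proj_perp (x : ι → F) : B (proj B a b x) a = 0 ∧ B (proj B a b x) b = 0 := by
  constructor <;>
    simp [proj, hG.setting.alt, hG.hab, hG.hba, hG.setting.add_self]

theorem Good.q_smul (r : F) (x : ι → F) : Q (r • x) = r ^ 2 * Q x := by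
  have hp : proj B a b (r • x) = r • proj B a b x := by
    simp [proj, smul_smul, smul_add]
  rw [qf, qf, hp, (hG.setting.homog hG.noTV hG.gp hG.dim hG.orb_b hG.hba
    (hG.proj_perp x).1 (hG.proj_perp x).2).1 r]
  simp only [map_smul, LinearMap.smul_apply, smul_eq_mul]
  ring

theorem Good.polar (x y : ι → F) : QuadraticMap.polar Q x y = B x y := by
  have hs := hG.setting
  have hp : proj B a b (x + y) = proj B a b x + proj B a b y := by
    simp only [proj, map_add, LinearMap.add_apply]; module
  have hB : B (proj B a b x) (proj B a b y) = B x y + B x b * B y a + B x a * B y b := by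
    simp only [proj, map_add, map_smul, LinearMap.add_apply, LinearMap.smul_apply, smul_eq_mul,
      hs.alt, hG.hab, hG.hba, hs.symm a y, hs.symm b y]
    linear_combination (B x b * B y a + B x a * B y b) * hs.two
  simp only [QuadraticMap.polar, qf]
  rw [hp, hs.par_add hG.noTV hs.orb_self (hG.proj_perp x).1 (hG.proj_perp y).1, hB]
  simp only [map_add, LinearMap.add_apply]
  linear_combination (B x b * B y a + B x a * B y b) * hs.two

theorem Good.isQF : Cfsg.Geo.IsNondegenerateQuadraticForm Q where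
  smul := hG.q_smul
  polar_bilinear :=
    { add_left := fun x y v => by simp only [hG.polar, map_add, LinearMap.add_apply]
      smul_left := fun c x v => by simp only [hG.polar, map_smul, LinearMap.smul_apply, smul_eq_mul]
      add_right := fun v x y => by simp only [hG.polar, map_add]
      smul_right := fun c v x => by simp only [hG.polar, map_smul, smul_eq_mul] }
  nondegenerate := fun u hu => by
    obtain ⟨z, hz⟩ : ∃ z, B u z ≠ 0 := by
      by_contra hc
      push Not at hc
      exact hu (hG.setting.nondeg u hc)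
    exact ⟨⟨z, by rw [hG.polar, hG.setting.symm]; exact hz⟩, ⟨z, by rw [hG.polar]; exact hz⟩⟩

theorem Good.bform_eq (x y : ι → F) : OrthGeo.bform hG.isQF x y = B x y := by
  rw [OrthGeo.bform_apply, hG.polar]

theorem Good.q_add (x y : ι → F) : Q (x + y) = Q x + Q y + B x y := by
  rw [← hG.bform_eq, OrthGeo.q_add hG.isQF]

theorem Good.q_a : Q a = 0 := by
  simp [qf, proj, hG.setting.alt, hG.hab, hG.setting.vadd_self,
    hG.setting.par_zero hG.noTV hG.setting.orb_self]

theorem Good.q_b : Q b = 0 := by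
  simp [qf, proj, hG.setting.alt, hG.hba, hG.setting.vadd_self,
    hG.setting.par_zero hG.noTV hG.setting.orb_self]

/-- Points whose root elements are those of the form. -/
def Adm (L : Subgroup (GL ι F)) (B : LinearMap.BilinForm F (ι → F)) (a b p : ι → F) : Prop :=
  Orb L a p ∧ qf L B a b p = 0 ∧ ∀ w, B w p = 0 → par L B p w = qf L B a b w

theorem Good.adm_a : Adm L B a b a := by
  refine ⟨hG.setting.orb_self, hG.q_a, fun w hw => ?_⟩
  rw [qf, proj, hw, mul_zero, zero_add, zero_smul, add_zero,
    hG.setting.par_shift hG.noTV hG.setting.orb_self hw]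

theorem Good.adm_b : Adm L B a b b := by
  refine ⟨hG.orb_b, hG.q_b, fun w hw => ?_⟩
  have h := hG.proj_perp w
  rw [qf, hw, zero_mul, zero_add, ← (hG.setting.homog hG.noTV hG.gp hG.dim hG.orb_b hG.hba h.1 h.2).2,
    proj, hw, zero_smul, add_zero, hG.setting.par_shift hG.noTV hG.orb_b hw]

theorem Good.sin_adm {p w : ι → F} (hp : Adm L B a b p) (hw : B w p = 0) : SIn L B p w (Q w) :=
  hp.2.2 w hw ▸ hG.setting.par_spec hp.1 hw

theorem Good.adm_apply {p : ι → F} (hp : Adm L B a b p) {g : GL ι F} (hg : g ∈ L)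
    (hgQ : ∀ x, Q ((g : Matrix ι ι F) *ᵥ x) = Q x) : Adm L B a b ((g : Matrix ι ι F) *ᵥ p) := by
  refine ⟨hG.setting.orb_apply hp.1 hg, by rw [hgQ, hp.2.1], fun w hw => ?_⟩
  obtain ⟨u, rfl⟩ : ∃ u, w = (g : Matrix ι ι F) *ᵥ u := ⟨_, (apply_inv g w).symm⟩
  rw [hG.setting.iso g hg] at hw
  rw [hG.setting.par_conj hG.noTV hp.1 hw hg, hgQ, hp.2.2 u hw]

theorem Good.adm_smul {p : ι → F} (hp : Adm L B a b p) {r : F} (hr : r ≠ 0) : Adm L B a b (r • p) := by
  have ho := hG.setting.scale_all hG.noTV hG.dim hp.1 hr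
  refine ⟨ho, by rw [hG.q_smul, hp.2.1, mul_zero], fun w hw => ?_⟩
  have hw' : B w p = 0 := by simpa [hr] using hw
  have h := hG.setting.par_smul hG.noTV hp.1 ho hw'
  rw [hp.2.2 _ (by simp [hw']), hG.q_smul] at h
  exact (mul_left_cancel₀ (pow_ne_zero 2 hr) h).symm

theorem Good.q_sin {p w : ι → F} {g : GL ι F} (hQp : Q p = 0) (hw : B w p = 0)
    (hgv : ∀ v, (g : Matrix ι ι F) *ᵥ v = v + B v p • w + (B v w + Q w * B v p) • p) (x : ι → F) :
    Q ((g : Matrix ι ι F) *ᵥ x) = Q x := by
  rw [hgv, hG.q_add, hG.q_add, hG.q_smul, hG.q_smul, hQp]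
  simp only [map_add, map_smul, LinearMap.add_apply, LinearMap.smul_apply, smul_eq_mul, hw]
  linear_combination (B x p * B x w + B x p ^ 2 * Q w) * hG.setting.two

theorem Good.adm_transfer {p q : ι → F} (hp : Adm L B a b p) (hq : Adm L B a b q) (hpq : B q p ≠ 0)
    {x : ι → F} (hx : Q x = 0) (hxp : B x p ≠ 0) : Adm L B a b x := by
  set r := B q p / B x p with hr
  have hr0 : r ≠ 0 := div_ne_zero hpq hxp
  set w := (B q p)⁻¹ • (r • x + q) with hw
  have hwp : B w p = 0 := by
    simp [hw, hr, div_mul_cancel₀ _ hxp, hG.setting.add_self]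
  obtain ⟨g, hg, hgv⟩ := hG.sin_adm hp hwp
  have hgq := hG.adm_apply hq hg (hG.q_sin hp.2.1 hwp hgv)
  set t := B q w + Q w * B q p with ht
  have e : (g : Matrix ι ι F) *ᵥ q = r • x + t • p := by
    rw [hgv, hw, smul_inv_smul₀ hpq, add_left_comm, hG.setting.vadd_self, add_zero]
  have h0 := hgq.2.1
  rw [e, hG.q_add, hG.q_smul, hx, hG.q_smul, hp.2.1] at h0
  simp only [map_smul, LinearMap.smul_apply, smul_eq_mul, mul_zero, zero_add, hr,
    div_mul_cancel₀ _ hxp, mul_eq_zero, hpq, hxp, or_false, div_eq_zero_iff, false_or] at h0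
  rw [e, h0, zero_smul, add_zero] at hgq
  simpa [smul_smul, inv_mul_cancel₀ hr0] using hG.adm_smul hgq (inv_ne_zero hr0)

theorem Good.adm_singular {x : ι → F} (hx0 : x ≠ 0) (hx : Q x = 0) : Adm L B a b x := by
  have hs := hG.setting
  by_cases hxa : B x a = 0
  swap; · exact hG.adm_transfer hG.adm_a hG.adm_b (by rw [hG.hba]; exact one_ne_zero) hx hxa
  by_cases hxb : B x b = 0
  swap; · exact hG.adm_transfer hG.adm_b hG.adm_a (by rw [hG.hab]; exact one_ne_zero) hx hxb
  obtain ⟨v, hv, hvx⟩ := hs.exists_sep (P := Submodule.span F ({a, b} : Set (ι → F))) (c := x)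
    (fun hm => by
      obtain ⟨s, t, rfl⟩ := Submodule.mem_span_pair.1 hm
      simp [hs.alt, hG.hab, hG.hba] at hxa hxb
      simp [hxa, hxb] at hx0)
  have hva := hv a (Submodule.subset_span (by simp))
  obtain ⟨g, hg, hgv⟩ := hG.sin_adm hG.adm_a hva
  have hy := hG.adm_apply hG.adm_b hg (hG.q_sin hG.q_a hva hgv)
  refine hG.adm_transfer hy hG.adm_a ?_ hx ?_
  · rw [hgv]
    simp [hG.hab, hG.hba, hs.alt, hs.symm a v, hva]
  · rw [hgv]
    simp [hG.hba, hxa, hxb, hs.symm x v, hvx]

theorem Good.orb_singular {p : ι → F} (hp : Orb L a p) : Q p = 0 := by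
  classical
  by_contra hne
  have hs := hG.setting
  set P := OrthGeo.perp hG.isQF (Submodule.span F {p}) with hP
  have h1 := OrthGeo.finrank_perp hG.isQF (Submodule.span F {p})
  rw [finrank_span_singleton (hs.orb_ne hp)] at h1
  obtain ⟨z, hzP, hz0, hz⟩ := OrthGeo.exists_singular hG.isQF (S := P) (by
    have := hG.dim; rw [hP, h1]; omega)
  rw [hP, OrthGeo.mem_perp_span_singleton hG.isQF, hG.bform_eq] at hzP
  have hA := hG.adm_singular hz0 hz
  have hind : p ∉ Submodule.span F {z} := fun hm => by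
    obtain ⟨t, rfl⟩ := Submodule.mem_span_singleton.1 hm
    exact hne (by rw [hG.q_smul, hz, mul_zero])
  have hpz : OPair L B a z p := ⟨hA.1, hp, hzP, hind⟩
  have := hG.gp _ _ hpz 1
  rw [one_smul, hA.2.2 p hzP] at this
  exact hne this

/-- The group preserves the form. -/
theorem Good.le_isometry : L ≤ Cfsg.isometryGroup F Q := by
  intro g hg
  have hs := hG.setting
  refine OrthGeo.mem_isometryGroup.2 ?_
  have key : ∀ p, Adm L B a b p → ∀ w, B w p = 0 → Q ((g : Matrix ι ι F) *ᵥ w) = Q w := by
    intro p hp w hw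
    have ho := hs.orb_apply hp.1 hg
    have hA := hG.adm_singular (hs.orb_ne ho) (hG.orb_singular ho)
    rw [← hA.2.2 _ (by rw [hs.iso g hg, hw]), hs.par_conj hG.noTV hp.1 hw hg, hp.2.2 w hw]
  intro x
  set w := x + B x a • b with hw
  have hwa : B w a = 0 := by simp [hw, hG.hba, hs.add_self]
  have hx : x = w + B x a • b := by rw [hw, add_assoc, hs.vadd_self, add_zero]
  rw [hx, Matrix.mulVec_add, hG.q_add, hG.q_add, key a hG.adm_a w hwa, hs.iso g hg,
    key b hG.adm_b (B x a • b) (by simp [hs.alt])]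

/-- The group contains the singular root elements. -/
theorem Good.eichlerGroup_le : OrthGeo.eichlerGroup hG.isQF ≤ L := by
  refine (Subgroup.closure_le _).2 ?_
  rintro _ ⟨u, w, hu, hw, rfl⟩
  have hs := hG.setting
  rw [hG.bform_eq] at hw
  have hw' : B w u = 0 := by rw [hs.symm, hw]
  obtain ⟨g, hg, hgv⟩ : SIn L B u w (Q w) := by
    by_cases hu0 : u = 0
    · subst hu0
      exact ⟨1, L.one_mem, fun v => by simp⟩
    · exact hG.sin_adm (hG.adm_singular hu0 hu) hw'
  have e : OrthGeo.eichler hG.isQF hu (by rw [hG.bform_eq]; exact hw) = g := by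
    refine OrthGeo.gl_ext fun x => ?_
    rw [OrthGeo.eichler_mulVec hG.isQF, hgv, hG.bform_eq, hG.bform_eq, hs.symm w x, hs.symm u x]
    match_scalars
    · simp
    · linear_combination (-(Q w * B x u)) * hs.two
    · linear_combination (-(B x u)) * hs.two
  exact e ▸ hg

end CfsgLib.SiegelTwo
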