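import Cfsg.Agent.Classical.SiegelTwo.Pairs

/-!
When all orthogonal pairs are good: scalars act on the orbit, and the parameter at `a` is a quadratic
form agreeing with the parameter at an opposite point.
-/

set_option autoImplicit false
set_option linter.unusedSectionVars false

namespace CfsgLib.SiegelTwo

open Module Matrix

variable {ι : Type} [Fintype ι] [DecidableEq ι] {F : Type*} [Field F] [Finite F]
variable {L : Subgroup (GL ι F)} {B : LinearMap.BilinForm F (ι → F)} {a : ι → F}
variable (hS : Setting L B a)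
include hS

theorem Setting.scale_orb_of {p : ι → F} (hp : Orb L a p) {r : F} (h : Orb L a (r • p))
    {y : ι → F} (hy : Orb L a y) : Orb L a (r • y) := by
  obtain ⟨g, hg, rfl⟩ := hp
  obtain ⟨k, hk, rfl⟩ := hy
  obtain ⟨l, hl, hla⟩ := h
  refine ⟨k * g⁻¹ * l, L.mul_mem (L.mul_mem hk (L.inv_mem hg)) hl, ?_⟩
  rw [Units.val_mul, Units.val_mul, ← Matrix.mulVec_mulVec, ← Matrix.mulVec_mulVec, hla,
    Matrix.mulVec_smul, inv_apply, Matrix.mulVec_smul]

theorem Setting.opair_map {p c : ι → F} (h : OPair L B a p c) {g : GL ι F} (hg : g ∈ L) :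
    OPair L B a ((g : Matrix ι ι F) *ᵥ p) ((g : Matrix ι ι F) *ᵥ c) := by
  refine ⟨hS.orb_apply h.1 hg, hS.orb_apply h.2.1 hg, by rw [hS.iso g hg, h.2.2.1], fun hm => ?_⟩
  obtain ⟨t, ht⟩ := Submodule.mem_span_singleton.1 hm
  refine h.2.2.2 (Submodule.mem_span_singleton.2 ⟨t, ?_⟩)
  rw [← inv_apply g (t • p), Matrix.mulVec_smul, ht, inv_apply]

theorem Setting.exists_perp_two {p q : ι → F} (hdim : 4 ≤ Fintype.card ι) :
    ∃ u, u ≠ 0 ∧ B u p = 0 ∧ B u q = 0 := by
  classical
  set P := Submodule.span F ({p, q} : Set (ι → F)) with hP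
  have hPle : finrank F P ≤ 2 := (finrank_span_le_card _).trans (by simpa using Finset.card_le_two)
  have h1 := LinearMap.BilinForm.finrank_orthogonal hS.bnd P
  rw [finrank_fintype_fun_eq_card] at h1
  obtain ⟨u, hu, hu0⟩ := Submodule.exists_mem_ne_zero_of_ne_bot (p := B.orthogonal P)
    (fun e => by rw [e, finrank_bot] at h1; omega)
  exact ⟨u, hu0, by rw [hS.symm]; exact hu p (Submodule.subset_span (by simp)),
    by rw [hS.symm]; exact hu q (Submodule.subset_span (by simp))⟩

theorem Setting.notMem_span {p b u : ι → F} (hpb : B p b ≠ 0) (hub : B u b = 0) (hu0 : u ≠ 0) :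
    u ∉ Submodule.span F {p} := fun hm => by
  obtain ⟨t, rfl⟩ := Submodule.mem_span_singleton.1 hm
  rw [map_smul, LinearMap.smul_apply, smul_eq_mul, mul_eq_zero] at hub
  exact hub.elim (fun h => hu0 (by rw [h, zero_smul])) hpb

/-- Without orthogonal pairs the parameter is bijective on suitable lines and the orbit meets a line twice. -/
theorem Setting.nopair_bijective (hN : NoTV L B a) (hP : ∀ p c, ¬ OPair L B a p c) {p b : ι → F}
    (hp : Orb L a p) (hb : Orb L a b) (hpb : B p b ≠ 0) {u : ι → F} (hu0 : u ≠ 0) (hup : B u p = 0)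
    (hub : B u b = 0) : Function.Bijective fun t : F => par L B p (t • u) := by
  refine Finite.injective_iff_bijective.1 fun t t' (e : par L B p (t • u) = par L B p (t' • u)) => ?_
  by_contra hne
  have ht : t + t' ≠ 0 := fun h => hne (hS.eq_of_add_eq_zero h)
  have hperp : ∀ s : F, B (s • u) p = 0 := fun s => by simp [hup]
  have h0 : par L B p ((t + t') • u) = 0 := by
    rw [add_smul, hS.par_add hN hp (hperp t) (hperp t'), e, hS.add_self]
    simp [hS.alt]
  have h1 := hS.orb_move (hS.par_spec hp (hperp (t + t'))) hb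
  rw [h0, zero_mul, add_zero, map_smul (B b), hS.symm b u, hub, smul_zero, zero_smul, add_zero] at h1
  refine hP b _ ⟨hb, h1, by simp [hS.alt, hub], fun hm => ?_⟩
  have h2 := Submodule.sub_mem _ hm (Submodule.mem_span_singleton_self b)
  rw [add_sub_cancel_left, Submodule.smul_mem_iff _ (by rwa [hS.symm b p]),
    Submodule.smul_mem_iff _ ht] at h2
  exact hS.notMem_span (by rwa [hS.symm b p]) hup hu0 h2

/-- The scalar coincidence for the points moved from `p` and from `b`. -/
theorem Setting.nopair_point (hN : NoTV L B a) (hP : ∀ p c, ¬ OPair L B a p c) {p b : ι → F}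
    (hp : Orb L a p) (hb : Orb L a b) {u : ι → F} (hu0 : u ≠ 0) (hup : B u p = 0) (hub : B u b = 0)
    (k μ : F) (hk : B p b = k) (hk0 : k ≠ 0) (hμ0 : μ ≠ 0) (hμ : par L B b u = μ) :
    par L B p ((k * μ)⁻¹ • u) = (k ^ 2 * μ)⁻¹ := by
  obtain ⟨s, hs⟩ := (hS.nopair_bijective hN hP hp hb (hk ▸ hk0) hu0 hup hub).surjective
    (par L B p ((k * μ)⁻¹ • u) + (k ^ 2 * μ)⁻¹)
  simp only at hs
  by_contra hne
  have hs0 : s ≠ 0 := fun e => by
    subst e
    rw [zero_smul, hS.par_zero hN hp] at hs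
    exact hne (hS.eq_of_add_eq_zero hs.symm)
  set t := (k * μ)⁻¹ + s with ht
  have htp : B (t • u) p = 0 := by simp [hup]
  have hd : par L B p (t • u) = (k ^ 2 * μ)⁻¹ := by
    rw [ht, add_smul, hS.par_add hN hp (by simp [hup]) (by simp [hup]), hs, ← add_assoc, hS.add_self]
    simp [hS.alt]
  have hc := hS.orb_move (hS.par_spec hb hub) hp
  have hb' := hS.orb_move (hS.par_spec hp htp) hb
  rw [hk, hS.symm p u, hup, hμ, zero_add] at hc
  rw [hS.symm b p, hk, map_smul, hS.symm b u, hub, smul_zero, zero_add, hd] at hb'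
  refine hP _ _ ⟨hb', hc, ?_, fun hm => ?_⟩
  · simp only [map_add, map_smul, LinearMap.add_apply, LinearMap.smul_apply, smul_eq_mul, hS.alt,
      hub, hup, hS.symm p u, hS.symm b u, hS.symm b p, hk]
    field_simp
    linear_combination (k ^ 2 * μ) * hS.two
  obtain ⟨x, hx⟩ := Submodule.mem_span_singleton.1 hm
  have ex := congrArg (fun y => B y p) hx
  simp only [map_add, map_smul, LinearMap.add_apply, LinearMap.smul_apply, smul_eq_mul, hS.alt,
    hup, hS.symm b p, hk, mul_zero, zero_add, add_zero] at ex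
  have hxv : x = μ * k := mul_right_cancel₀ hk0 (by linear_combination ex)
  subst hxv
  have eb := congrArg (fun y => B y b) hx
  simp only [map_add, map_smul, LinearMap.add_apply, LinearMap.smul_apply, smul_eq_mul, hS.alt,
    hub, hk, mul_zero, zero_add, add_zero] at eb
  have hu' : (μ * k ^ 2 * t) • u = k • u := by
    have hcoef : μ * k * ((k ^ 2 * μ)⁻¹ * k) = 1 := by field_simp
    rw [smul_add, smul_add, smul_smul, smul_smul, smul_smul, hcoef] at hx
    linear_combination (norm := module) hx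
  have h2 : μ * k ^ 2 * t = k := smul_left_injective F hu0 hu'
  refine hs0 ?_
  have h3 : μ * k ^ 2 * (k * μ)⁻¹ = k := by field_simp
  have h4 : μ * k ^ 2 * s = 0 := by rw [ht] at h2; linear_combination h2 - h3
  simpa [hμ0, hk0] using h4

/-- Scalars act on the orbit. -/
theorem Setting.scale_all (hN : NoTV L B a) (hdim : 4 ≤ Fintype.card ι) {p : ι → F} (hp : Orb L a p)
    {r : F} (hr : r ≠ 0) : Orb L a (r • p) := by
  by_cases hP : ∃ p c, OPair L B a p c
  · obtain ⟨p', c, h⟩ := hP
    exact hS.scale_orb_of h.1 (hS.line_of_pair h.1 h.2.1 h.2.2.1 h.2.2.2 hr) hp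
  push Not at hP
  obtain ⟨b, hb, hba⟩ := hS.exists_nonorth hS.a_ne
  have hab : B a b ≠ 0 := by rwa [hS.symm]
  obtain ⟨u₀, hu0, hua, hub⟩ := hS.exists_perp_two (p := a) (q := b) hdim
  set k := B a b with hk
  obtain ⟨t, htp⟩ := (hS.nopair_bijective hN hP hb hS.orb_self hba hu0 hub hua).surjective (r / k)
  simp only at htp
  set μ := r / k with hμ
  have hμ0 : μ ≠ 0 := div_ne_zero hr hab
  have ht0 : t ≠ 0 := fun e => hμ0 (by rw [← htp, e, zero_smul, hS.par_zero hN hb])
  have hua' : B (t • u₀) a = 0 := by simp [hua]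
  have hub' : B (t • u₀) b = 0 := by simp [hub]
  have hC := hS.nopair_point hN hP hS.orb_self hb (smul_ne_zero ht0 hu0) hua' hub' k μ rfl hab hμ0 htp
  have hc := hS.orb_move (hS.par_spec hb hub') hS.orb_self
  have hb' := hS.orb_move (hS.par_spec hS.orb_self
    (w := (k * μ)⁻¹ • (t • u₀)) (by simp [hua])) hb
  rw [hC] at hb'
  rw [htp] at hc
  have e : a + k • t • u₀ + (B a (t • u₀) + μ * k) • b =
      r • (b + B b a • (k * μ)⁻¹ • t • u₀ +
        (B b ((k * μ)⁻¹ • t • u₀) + (k ^ 2 * μ)⁻¹ * B b a) • a) := by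
    have h1 : r = μ * k := by rw [hμ, div_mul_cancel₀ _ hab]
    rw [hS.symm a (t • u₀), hua', hS.symm b ((k * μ)⁻¹ • t • u₀), map_smul, LinearMap.smul_apply, hub',
      smul_zero, zero_add, zero_add, hS.symm b a, ← hk, h1]
    match_scalars <;> field_simp
  rw [← hk, e] at hc
  exact hS.scale_orb_of hb' hc hp

theorem Setting.exists_opposite (hN : NoTV L B a) (hdim : 4 ≤ Fintype.card ι) :
    ∃ b, Orb L a b ∧ B b a = 1 := by
  obtain ⟨b, hb, hba⟩ := hS.exists_nonorth hS.a_ne
  exact ⟨_, hS.scale_all hN hdim hb (inv_ne_zero hba), by simp [inv_mul_cancel₀ hba]⟩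

theorem Setting.exists_zero_of_opair (hN : NoTV L B a) (hG : ∀ p c, OPair L B a p c → GPair L B p c)
    {b : ι → F} (hba : B b a = 1) {p c : ι → F} (h : OPair L B a p c) :
    ∃ z, z ≠ 0 ∧ B z a = 0 ∧ B z b = 0 ∧ par L B a z = 0 := by
  obtain ⟨g, hg, hga⟩ := h.1
  have h' := hS.opair_map h (L.inv_mem hg)
  rw [← hga, inv_apply] at h'
  set c' := ((g⁻¹ : GL ι F) : Matrix ι ι F) *ᵥ c
  refine ⟨c' + B c' b • a, fun e => h'.2.2.2 (Submodule.mem_span_singleton.2 ⟨B c' b, ?_⟩), ?_, ?_, ?_⟩
  · linear_combination (norm := module) -e + hS.vadd_self (B c' b • a)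
  · simp [h'.2.2.1, hS.alt]
  · simp [hS.symm a b, hba, hS.add_self]
  · rw [hS.par_shift hN hS.orb_self h'.2.2.1]
    simpa using hG _ _ h' 1

/-- The parameters at two opposite points form one quadratic form. -/
theorem Setting.homog (hN : NoTV L B a) (hG : ∀ p c, OPair L B a p c → GPair L B p c)
    (hdim : 4 ≤ Fintype.card ι) {b : ι → F} (hb : Orb L a b) (hba : B b a = 1) {u : ι → F}
    (hua : B u a = 0) (hub : B u b = 0) :
    (∀ r : F, par L B a (r • u) = r ^ 2 * par L B a u) ∧ par L B b u = par L B a u := by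
  have hscale : ∀ {p : ι → F}, Orb L a p → ∀ {r : F}, r ≠ 0 → Orb L a (r • p) :=
    fun hp _ hr => hS.scale_all hN hdim hp hr
  have hab : B a b = 1 := by rw [hS.symm, hba]
  by_cases hz : ∃ z, z ≠ 0 ∧ B z a = 0 ∧ B z b = 0 ∧ par L B a z = 0
  · -- the vectors orthogonal to a zero
    have zero_case : ∀ z, z ≠ 0 → B z a = 0 → B z b = 0 → par L B a z = 0 → ∀ v, B v a = 0 →
        B v b = 0 → B v z = 0 →
        (∀ r : F, par L B a (r • v) = r ^ 2 * par L B a v) ∧ par L B b v = par L B a v := by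
      intro z hz0 hza hzb hdz v hva hvb hvz
      have h1 := hS.orb_move (hS.par_spec hS.orb_self hza) hb
      rw [hdz, hba, one_smul, hS.symm b z, hzb, zero_mul, add_zero, zero_smul, add_zero] at h1
      have hzs : z ∉ Submodule.span F {b} := hS.notMem_span (by simp [hba]) hza hz0
      have hpb : OPair L B a b (b + z) := ⟨hb, h1, by simp [hS.alt, hzb], fun hm => hzs (by
        simpa using Submodule.sub_mem _ hm (Submodule.mem_span_singleton_self b))⟩
      have hzo : Orb L a z := by
        have := hS.shear hb h1 hpb.2.2.1 hpb.2.2.2 1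
        rwa [one_smul, add_comm b z, add_assoc, hS.vadd_self, add_zero] at this
      have hpaz : OPair L B a a z :=
        ⟨hS.orb_self, hzo, hza, hS.notMem_span (by simp [hab]) hzb hz0⟩
      have hpbz : OPair L B a b z := ⟨hb, hzo, hzb, hzs⟩
      have ea : ∀ x, B x a = 0 → B x z = 0 → par L B a x = par L B z x := fun x h1 h2 =>
        hS.par_eq_of_gpair hN hpaz (hG _ _ hpaz) h1 h2
      refine ⟨fun r => ?_, ?_⟩
      · by_cases hr : r = 0
        · simp [hr, hS.par_zero hN hS.orb_self]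
        have hpr := hS.opair_scale hpaz hr
        rw [ea (r • v) (by simp [hva]) (by simp [hvz]), hS.par_smul hN hzo hpr.2.1 hvz,
          hS.par_eq_of_gpair hN hpr (hG _ _ hpr) hva (by simp [hvz])]
      · rw [hS.par_eq_of_gpair hN hpbz (hG _ _ hpbz) hvb hvz, ← ea v hva hvz]
    obtain ⟨z, hz0, hza, hzb, hdz⟩ := hz
    obtain ⟨v, hv, hvz⟩ := hS.exists_sep (P := Submodule.span F ({a, b} : Set (ι → F))) (c := z)
      (fun hm => by
        obtain ⟨x, y, rfl⟩ := Submodule.mem_span_pair.1 hm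
        simp [hS.alt, hab, hba] at hza hzb
        simp [hza, hzb] at hz0)
    have hva := hv a (Submodule.subset_span (by simp))
    have hvb := hv b (Submodule.subset_span (by simp))
    set z' := v + par L B a v • z with hz'
    have hz'a : B z' a = 0 := by simp [hz', hva, hza]
    have hz'b : B z' b = 0 := by simp [hz', hvb, hzb]
    have hz'z : B z' z = 1 := by simp [hz', hvz, hS.alt]
    have hdz' : par L B a z' = 0 := by
      rw [hz', hS.par_add hN hS.orb_self hva (by simp [hza]),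
        (zero_case z hz0 hza hzb hdz z hza hzb (hS.alt z)).1, hdz, mul_zero, add_zero, map_smul, hvz,
        smul_eq_mul, mul_one, hS.add_self]
    have hz'0 : z' ≠ 0 := fun e => by simp [e] at hz'z
    set u₁ := u + B u z • z' with hu₁
    have hu₁a : B u₁ a = 0 := by simp [hu₁, hua, hz'a]
    have hu₁b : B u₁ b = 0 := by simp [hu₁, hub, hz'b]
    have hu₁z : B u₁ z = 0 := by simp [hu₁, hz'z, hS.add_self]
    set u₂ := B u z • z' with hu₂
    have hu₂a : B u₂ a = 0 := by simp [hu₂, hz'a]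
    have hu₂b : B u₂ b = 0 := by simp [hu₂, hz'b]
    have hu₂z : B u₂ z' = 0 := by simp [hu₂, hS.alt]
    obtain ⟨A1, A2⟩ := zero_case z hz0 hza hzb hdz u₁ hu₁a hu₁b hu₁z
    obtain ⟨C1, C2⟩ := zero_case z' hz'0 hz'a hz'b hdz' u₂ hu₂a hu₂b hu₂z
    have hu : u = u₁ + u₂ := by rw [hu₁, add_assoc, hS.vadd_self, add_zero]
    refine ⟨fun r => ?_, ?_⟩
    · rw [hu, smul_add, hS.par_add hN hS.orb_self (by simp [hu₁a]) (by simp [hu₂a]),
        hS.par_add hN hS.orb_self hu₁a hu₂a, A1, C1]
      simp only [map_smul, LinearMap.smul_apply, smul_eq_mul]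
      ring
    · rw [hu, hS.par_add hN hb hu₁b hu₂b, hS.par_add hN hS.orb_self hu₁a hu₂a, A2, C2]
  push Not at hz
  have hP : ∀ p c, ¬ OPair L B a p c := fun p c h => by
    obtain ⟨z, hz0, hza, hzb, hdz⟩ := hS.exists_zero_of_opair hN hG hba h
    exact hz z hz0 hza hzb hdz
  by_cases hu0 : u = 0
  · subst hu0; simp [hS.par_zero hN hS.orb_self, hS.par_zero hN hb]
  have key : ∀ μ s : F, μ ≠ 0 → par L B b ((μ * s) • u) = μ ^ 2 * par L B a (s • u) := by
    intro μ s hμ0
    obtain ⟨x, hx⟩ := (hS.nopair_bijective hN hP hb hS.orb_self (by simp [hba]) hu0 hub hua).surjective μ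
    simp only at hx
    have hx0 : x ≠ 0 := fun e => hμ0 (by rw [← hx, e, zero_smul, hS.par_zero hN hb])
    have hxa : B (x • u) a = 0 := by simp [hua]
    have hxb : B (x • u) b = 0 := by simp [hub]
    have hC := hS.nopair_point hN hP hS.orb_self hb (smul_ne_zero hx0 hu0) hxa hxb 1 μ hab one_ne_zero
      hμ0 hx
    simp only [one_mul, one_pow] at hC
    obtain ⟨g, hg, hgv⟩ := hS.par_spec hb hxb
    obtain ⟨k, hk, hkv⟩ := hS.par_spec hS.orb_self (w := μ⁻¹ • x • u) (by simp [hua])
    set b' := (k : Matrix ι ι F) *ᵥ b with hb'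
    have hb'o : Orb L a b' := hS.orb_apply hb hk
    have hga : (g : Matrix ι ι F) *ᵥ a = μ • b' := by
      rw [hgv, hb', hkv, hx, hC, hab, hba, hS.symm a (x • u), hxa]
      simp only [map_smul, smul_eq_mul, hS.symm b u, hub]
      match_scalars <;> field_simp <;> ring
    have e1 := hS.par_conj hN hS.orb_self (w := s • u) (by simp [hua]) hg
    rw [hga, show (g : Matrix ι ι F) *ᵥ (s • u) = s • u by
      rw [hgv]; simp [hub, hS.alt]] at e1
    have e2 := hS.par_conj hN hb (w := (μ * s) • u) (by simp [hub]) hk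
    rw [show (k : Matrix ι ι F) *ᵥ ((μ * s) • u) = (μ * s) • u by rw [hkv]; simp [hua, hS.alt],
      ← hb', mul_smul, hS.par_smul hN hb'o (hscale hb'o hμ0) (w := s • u)
        (by rw [hb', hkv]; simp [hub, hua, hS.alt]), e1, ← mul_smul] at e2
    exact e2.symm
  have hone : ∀ s : F, par L B b (s • u) = par L B a (s • u) := fun s => by
    simpa using key 1 s one_ne_zero
  refine ⟨fun r => ?_, by simpa using hone 1⟩
  by_cases hr : r = 0
  · simp [hr, hS.par_zero hN hS.orb_self]
  have := key r 1 hr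
  rwa [mul_one, hone, one_smul] at this

end CfsgLib.SiegelTwo
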