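import Cfsg.Agent.Classical.SiegelTwo.Basic

/-!
Without transvections: the parameter of a root element is unique; compatibility at orthogonal pairs.
-/

set_option autoImplicit false
set_option linter.unusedSectionVars false

namespace CfsgLib.SiegelTwo

open Module Matrix

variable {ι : Type} [Fintype ι] [DecidableEq ι] {F : Type*} [Field F]

/-- No transvection of the group is centred at `a`. -/
def NoTV (L : Subgroup (GL ι F)) (B : LinearMap.BilinForm F (ι → F)) (a : ι → F) : Prop :=
  ∀ c, SIn L B a 0 c → c = 0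

/-- The parameter of a root element. -/
noncomputable def par (L : Subgroup (GL ι F)) (B : LinearMap.BilinForm F (ι → F)) (p w : ι → F) : F :=
  Classical.epsilon (SIn L B p w)

/-- An orthogonal pair of the orbit. -/
def OPair (L : Subgroup (GL ι F)) (B : LinearMap.BilinForm F (ι → F)) (a p c : ι → F) : Prop :=
  Orb L a p ∧ Orb L a c ∧ B c p = 0 ∧ c ∉ Submodule.span F {p}

variable {L : Subgroup (GL ι F)} {B : LinearMap.BilinForm F (ι → F)} {a : ι → F}
variable (hS : Setting L B a)
include hS

theorem Setting.opair_symm {p c : ι → F} (h : OPair L B a p c) : OPair L B a c p := by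
  obtain ⟨hp, hc, hpc, hind⟩ := h
  refine ⟨hc, hp, by rw [hS.symm, hpc], fun hm => ?_⟩
  obtain ⟨t, rfl⟩ := Submodule.mem_span_singleton.1 hm
  rcases eq_or_ne t 0 with rfl | ht
  · exact hS.orb_ne hp (by simp)
  · exact hind (Submodule.mem_span_singleton.2 ⟨t⁻¹, by rw [inv_smul_smul₀ ht]⟩)

theorem Setting.opair_scale {p c : ι → F} (h : OPair L B a p c) {r : F} (hr : r ≠ 0) :
    OPair L B a p (r • c) := by
  obtain ⟨hc', hp', hcp, hind'⟩ := hS.opair_symm h
  exact ⟨h.1, hS.line_of_pair hc' hp' hcp hind' hr, by simp [h.2.2.1],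
    fun hm => h.2.2.2 ((Submodule.smul_mem_iff _ hr).1 hm)⟩

theorem Setting.noTV_orb (hN : NoTV L B a) {p : ι → F} (hp : Orb L a p) {c : F}
    (h : SIn L B p 0 c) : c = 0 := by
  obtain ⟨g, hg, rfl⟩ := hp
  have := hS.sin_conj h (L.inv_mem hg)
  rw [inv_apply, Matrix.mulVec_zero] at this
  exact hN c this

theorem Setting.par_spec {p w : ι → F} (hp : Orb L a p) (hw : B w p = 0) :
    SIn L B p w (par L B p w) :=
  Classical.epsilon_spec (hS.rad_orb hp hw)

theorem Setting.par_eq (hN : NoTV L B a) {p w : ι → F} {c : F} (hp : Orb L a p) (hw : B w p = 0)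
    (h : SIn L B p w c) : par L B p w = c :=
  hS.eq_of_add_eq_zero (hS.noTV_orb hN hp (hS.sin_unique_or (hS.par_spec hp hw) h hw))

theorem Setting.par_add (hN : NoTV L B a) {p w w' : ι → F} (hp : Orb L a p) (hw : B w p = 0)
    (hw' : B w' p = 0) : par L B p (w + w') = par L B p w + par L B p w' + B w w' :=
  hS.par_eq hN hp (by simp [hw, hw'])
    (hS.sin_add (hS.par_spec hp hw) (hS.par_spec hp hw') hw hw')

theorem Setting.par_zero (hN : NoTV L B a) {p : ι → F} (hp : Orb L a p) : par L B p 0 = 0 :=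
  hS.par_eq hN hp (by simp) (hS.sin_zero p)

theorem Setting.par_shift (hN : NoTV L B a) {p w : ι → F} (hp : Orb L a p) (hw : B w p = 0) (t : F) :
    par L B p (w + t • p) = par L B p w :=
  hS.par_eq hN hp (by simp [hw, hS.alt]) ((hS.sin_shift p w t _).2 (hS.par_spec hp hw))

theorem Setting.par_conj (hN : NoTV L B a) {p w : ι → F} (hp : Orb L a p) (hw : B w p = 0)
    {g : GL ι F} (hg : g ∈ L) :
    par L B ((g : Matrix ι ι F) *ᵥ p) ((g : Matrix ι ι F) *ᵥ w) = par L B p w :=
  hS.par_eq hN (hS.orb_apply hp hg) (by rw [hS.iso g hg, hw]) (hS.sin_conj (hS.par_spec hp hw) hg)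

theorem Setting.par_smul (hN : NoTV L B a) {p w : ι → F} {r : F} (hp : Orb L a p)
    (hrp : Orb L a (r • p)) (hw : B w p = 0) :
    par L B p (r • w) = r ^ 2 * par L B (r • p) w :=
  hS.par_eq hN hp (by simp [hw]) ((hS.sin_smul p w r _).1 (hS.par_spec hrp (by simp [hw])))

/-- The commutation relation at an orthogonal pair. -/
theorem Setting.pair_comm (hN : NoTV L B a) {p c : ι → F} (h : OPair L B a p c) {u w : ι → F}
    (hup : B u p = 0) (huc : B u c = 0) (hwp : B w p = 0) :
    par L B p (B w c • u + (B w u + par L B c u * B w c) • c) = par L B c u * B w c ^ 2 := by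
  obtain ⟨hp, hc, hpc, -⟩ := h
  set e := par L B c u
  obtain ⟨g, hg, hgv⟩ := hS.par_spec hc huc
  have hgp : (g : Matrix ι ι F) *ᵥ p = p := by
    rw [hgv, hS.symm p c, hpc, hS.symm p u, hup]; simp
  have h1 := hS.par_conj hN hp hwp hg
  rw [hgp, hgv] at h1
  set z := B w c • u + (B w u + e * B w c) • c with hz
  have hzp : B z p = 0 := by simp [hz, hup, hpc]
  rw [show w + B w c • u + (B w u + par L B c u * B w c) • c = w + z by rw [hz, add_assoc],
    hS.par_add hN hp hwp hzp] at h1
  have hBz : B w z = e * B w c ^ 2 := by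
    simp only [hz, map_add, map_smul, smul_eq_mul]
    linear_combination (B w c * B w u) * hS.two
  rw [hBz] at h1
  exact hS.eq_of_add_eq_zero (by linear_combination h1)

/-- The good pairs. -/
def GPair (L : Subgroup (GL ι F)) (B : LinearMap.BilinForm F (ι → F)) (p c : ι → F) : Prop :=
  ∀ t : F, par L B p (t • c) = 0

theorem Setting.par_eq_of_gpair (hN : NoTV L B a) {p c : ι → F} (h : OPair L B a p c)
    (hg : GPair L B p c) {u : ι → F} (hup : B u p = 0) (huc : B u c = 0) :
    par L B p u = par L B c u := by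
  obtain ⟨w, hwp, hwc⟩ := hS.exists_perp_sep h.2.2.2
  have h1 := hS.pair_comm hN h hup huc hwp
  rw [hwc, one_smul, mul_one, one_pow, mul_one,
    hS.par_add hN h.1 hup (by simp [h.2.2.1]), hg, map_smul, huc, smul_zero, add_zero, add_zero] at h1
  exact h1

theorem Setting.gpair_two (hN : NoTV L B a) {p c : ι → F} (h2 : ∀ t : F, t = 0 ∨ t = 1)
    (h : OPair L B a p c) (h0 : par L B p c = 0) : GPair L B p c := fun t => by
  rcases h2 t with rfl | rfl
  · rw [zero_smul, hS.par_zero hN h.1]
  · rwa [one_smul]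

/-- Every orthogonal pair is good, but for four dimensions over two elements. -/
theorem Setting.gpair [Finite F] (hN : NoTV L B a) {p c : ι → F} (h : OPair L B a p c)
    (hbig : 6 ≤ Fintype.card ι ∨ ∃ t : F, t ≠ 0 ∧ t ≠ 1)
    (hdim : 4 ≤ Fintype.card ι) : GPair L B p c := by
  classical
  by_cases hU : ∃ w u, B w p = 0 ∧ B w c = 0 ∧ B u p = 0 ∧ B u c = 0 ∧ B w u ≠ 0
  · obtain ⟨w, u, hwp, hwc, hup, huc, hwu⟩ := hU
    intro t
    have h1 := hS.pair_comm hN h hup huc (w := (t / B w u) • w) (by simp [hwp])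
    simpa [hwc, div_mul_cancel₀ _ hwu] using h1
  push Not at hU
  set P := Submodule.span F ({p, c} : Set (ι → F)) with hP
  have hPle : finrank F P ≤ 2 := (finrank_span_le_card _).trans (by
    simpa using Finset.card_le_two)
  have h1 := LinearMap.BilinForm.finrank_orthogonal hS.bnd P
  rw [finrank_fintype_fun_eq_card] at h1
  have hmemU : ∀ {x}, x ∈ B.orthogonal P → B x p = 0 ∧ B x c = 0 := fun {x} hx =>
    ⟨by rw [hS.symm]; exact hx p (Submodule.subset_span (by simp)),
      by rw [hS.symm]; exact hx c (Submodule.subset_span (by simp))⟩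
  have hsub : B.orthogonal P ≤ B.orthogonal (B.orthogonal P) := fun u hu w hw =>
    hU w u (hmemU hw).1 (hmemU hw).2 (hmemU hu).1 (hmemU hu).2
  rw [LinearMap.BilinForm.orthogonal_orthogonal hS.bnd (fun x y e => by rw [hS.symm, e])] at hsub
  have h2 := Submodule.finrank_mono hsub
  have hι : Fintype.card ι = 4 := by omega
  obtain ⟨l, hl0, hl1⟩ : ∃ t : F, t ≠ 0 ∧ t ≠ 1 := hbig.resolve_left (by omega)
  -- every value of the parameter is fixed by the parameter of the partner
  have key : ∀ {p c : ι → F}, OPair L B a p c → ∀ s : F,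
      par L B p ((par L B c (s • p)) • c) = par L B c (s • p) := by
    intro p c h s
    obtain ⟨w, hwp, hwc⟩ := hS.exists_perp_sep h.2.2.2
    have hpc' : B p c = 0 := by rw [hS.symm]; exact h.2.2.1
    have h1 := hS.pair_comm hN h (u := s • p) (by simp [hS.alt]) (by simp [hpc']) hwp
    rw [hwc, one_smul, mul_one, one_pow, mul_one, map_smul, hwp, smul_zero, zero_add, add_comm,
      hS.par_shift hN h.1 (by simp [h.2.2.1])] at h1
    exact h1
  have key2 : ∀ {p c : ι → F}, OPair L B a p c → ∀ s : F, par L B c (s • p) ≠ 0 →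
      ∀ x : F, par L B p (x • c) = x ^ 2 / par L B c (s • p) := by
    intro p c h s hr x
    set r := par L B c (s • p) with hrdef
    by_cases hx : x = 0
    · subst hx; rw [zero_smul, hS.par_zero hN h.1]; simp
    set t := r / x with ht
    have ht0 : t ≠ 0 := div_ne_zero hr hx
    have h' := hS.opair_scale h ht0
    have hpc' : B p c = 0 := by rw [hS.symm]; exact h.2.2.1
    have h2 := hS.par_smul hN h.2.1 h'.2.1 (w := (t⁻¹ * s) • p) (by simp [hpc'])
    rw [smul_smul, ← mul_assoc, mul_inv_cancel₀ ht0, one_mul, ← hrdef] at h2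
    have h3 := key h' (t⁻¹ * s)
    have h4 : par L B (t • c) ((t⁻¹ * s) • p) = x ^ 2 / r := by
      rw [show par L B (t • c) ((t⁻¹ * s) • p) = r / t ^ 2 by rw [h2]; field_simp, ht]
      field_simp
    rw [h4, smul_smul, show x ^ 2 / r * t = x by rw [ht]; field_simp] at h3
    exact h3
  intro t
  by_contra hne
  have hsym := key2 (hS.opair_symm h) t hne
  set r := par L B p (t • c)
  have hr1 : par L B c ((1 : F) • p) ≠ 0 := by rw [hsym]; simp [hne]
  have hrl : par L B c (l • p) ≠ 0 := by rw [hsym]; simp [hne, hl0]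
  have e := (key2 h 1 hr1 1).symm.trans (key2 h l hrl 1)
  rw [hsym, hsym] at e
  field_simp at e
  have : (l + 1) ^ 2 = 0 := by linear_combination e + (l + 1) * hS.two
  rw [sq_eq_zero_iff] at this
  exact hl1 (hS.eq_of_add_eq_zero this)

end CfsgLib.SiegelTwo
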