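import Cfsg.Agent.Classical.SiegelTwo.Basic

/-!
A normal two-subgroup of a point stabiliser of a symplectic group in characteristic two consists of
radical elements; a complement to the transvections in it realises every parameter.
-/

set_option autoImplicit false
set_option linter.unusedSectionVars false

namespace CfsgLib.SiegelTwo

open Module Matrix

variable {ι : Type} [Fintype ι] [DecidableEq ι] {F : Type*} [Field F] [Fintype F]
variable {B : LinearMap.BilinForm F (ι → F)} {a b : ι → F}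
variable (h2 : (2 : F) = 0) (halt : ∀ v, B v v = 0) (hnd : ∀ u, (∀ v, B u v = 0) → u = 0)
variable (H : Subgroup (GL ι F))
variable (hH : ∀ g : GL ι F, g ∈ H ↔
  (∀ u v, B ((g : Matrix ι ι F) *ᵥ u) ((g : Matrix ι ι F) *ᵥ v) = B u v) ∧ (g : Matrix ι ι F) *ᵥ a = a)

include h2 halt in
theorem symm_of_alt (u v : ι → F) : B u v = B v u := by
  have h := halt (u + v)
  simp only [map_add, LinearMap.add_apply, halt, zero_add, add_zero] at h
  linear_combination h - B v u * h2

include h2 halt hnd in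
theorem exists_one_of_ne {u : ι → F} (hu : u ≠ 0) : ∃ v, B v u = 1 := by
  obtain ⟨v, hv⟩ : ∃ v, B u v ≠ 0 := by
    by_contra hc
    push Not at hc
    exact hu (hnd u hc)
  exact ⟨(B u v)⁻¹ • v, by rw [symm_of_alt h2 halt]; simp [inv_mul_cancel₀ hv]⟩

omit [Fintype F] in
/-- An involutory linear map as an invertible matrix. -/
theorem exists_gl_of_invol (T : (ι → F) →ₗ[F] (ι → F)) (h : ∀ x, T (T x) = x) :
    ∃ g : GL ι F, ∀ x, (g : Matrix ι ι F) *ᵥ x = T x := by
  have hm : LinearMap.toMatrix' T * LinearMap.toMatrix' T = 1 := by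
    rw [← LinearMap.toMatrix'_comp, show T ∘ₗ T = LinearMap.id from LinearMap.ext h, LinearMap.toMatrix'_id]
  exact ⟨⟨_, _, hm, hm⟩, fun x => LinearMap.toMatrix'_mulVec T x⟩

include h2 halt hnd hH in
theorem radical_act (hdim : 4 ≤ Fintype.card ι) (ha : a ≠ 0) {N : Subgroup (GL ι F)} (hNH : N ≤ H)
    (hN : IsPGroup 2 N) (hnorm : ∀ h ∈ H, ∀ g ∈ N, h * g * h⁻¹ ∈ N) {g : GL ι F} (hg : g ∈ N)
    {v : ι → F} (hv : B v a = 0) : (g : Matrix ι ι F) *ᵥ v - v ∈ Submodule.span F {a} := by
  classical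
  haveI : Fact (Nat.Prime 2) := ⟨Nat.prime_two⟩
  haveI : CharP F 2 := CharTwo.of_one_ne_zero_of_two_eq_zero one_ne_zero h2
  set P := Submodule.span F ({a} : Set (ι → F)) with hP
  set U : Submodule F (ι → F) := LinearMap.ker (B.flip a) with hU
  have hmemU : ∀ x, x ∈ U ↔ B x a = 0 := fun x => by rw [hU, LinearMap.mem_ker]; rfl
  set W := U.map P.mkQ with hW
  have hpres : ∀ g ∈ N, ∀ x, x ∈ P → (g : Matrix ι ι F) *ᵥ x ∈ P := fun g hg x hx => by
    obtain ⟨t, rfl⟩ := Submodule.mem_span_singleton.1 hx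
    rw [Matrix.mulVec_smul, ((hH g).1 (hNH hg)).2]
    exact Submodule.smul_mem _ _ (Submodule.mem_span_singleton_self a)
  let act : N → ((ι → F) ⧸ P) →ₗ[F] ((ι → F) ⧸ P) := fun g =>
    P.mapQ P (Matrix.mulVecLin ((g : GL ι F) : Matrix ι ι F)) (fun x hx => by simpa using hpres g g.2 x hx)
  have hact : ∀ g x, act g (P.mkQ x) = P.mkQ (((g : GL ι F) : Matrix ι ι F) *ᵥ x) := fun g x => by simp [act]
  have hWmem : ∀ g q, q ∈ W → act g q ∈ W := by
    rintro g _ ⟨x, hx, rfl⟩
    refine ⟨_, ?_, (hact g x).symm⟩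
    rw [SetLike.mem_coe, hmemU] at hx ⊢
    have h := ((hH _).1 (hNH g.2)).1 x a
    rwa [((hH _).1 (hNH g.2)).2, hx] at h
  letI : MulAction N W :=
    { smul := fun g q => ⟨act g q, hWmem g q q.2⟩
      one_smul := fun q => Subtype.ext (by
        show act 1 q = q
        obtain ⟨x, hx⟩ := Submodule.mkQ_surjective P (q : (ι → F) ⧸ P)
        rw [← hx, hact]; simp)
      mul_smul := fun g g' q => Subtype.ext (by
        show act (g * g') q = act g (act g' q)
        obtain ⟨x, hx⟩ := Submodule.mkQ_surjective P (q : (ι → F) ⧸ P)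
        rw [← hx, hact, hact, hact, Matrix.mulVec_mulVec]; rfl) }
  -- a fixed class
  have hdimW : 1 ≤ finrank F W := by
    have e1 := LinearMap.finrank_range_add_finrank_ker (B.flip a)
    have e2 := Submodule.finrank_le (LinearMap.range (B.flip a))
    rw [finrank_self] at e2
    have e3 := LinearMap.finrank_range_add_finrank_ker (P.mkQ.domRestrict U)
    rw [LinearMap.range_domRestrict, LinearMap.ker_domRestrict, Submodule.ker_mkQ] at e3
    have e4 : finrank F ↥(P.comap U.subtype) ≤ 1 := by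
      have hle : P ≤ U := (Submodule.span_singleton_le_iff_mem _ _).2 ((hmemU a).2 (halt a))
      rw [(Submodule.comapSubtypeEquivOfLe hle).finrank_eq, hP, finrank_span_singleton ha]
    rw [finrank_fintype_fun_eq_card] at e1
    rw [← hU] at e1
    rw [← hW] at e3
    omega
  have hfix0 : (0 : W) ∈ MulAction.fixedPoints N W := fun g => Subtype.ext (map_zero (act g))
  have hdvd : 2 ∣ Nat.card W := by
    rw [Module.natCard_eq_pow_finrank (K := F), Nat.card_eq_fintype_card]
    obtain ⟨n, -, hn⟩ := FiniteField.card F 2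
    rw [hn, ← pow_mul]
    exact dvd_pow_self 2 (Nat.mul_ne_zero n.ne_zero (by omega))
  obtain ⟨q, hq, hq0⟩ := hN.exists_fixed_point_of_prime_dvd_card_of_fixed_point W hdvd hfix0
  obtain ⟨u, hu, huq⟩ := q.2
  rw [SetLike.mem_coe, hmemU] at hu
  -- the fixed vectors
  let S : Submodule F (ι → F) := ⨅ g : N, LinearMap.ker (P.mkQ ∘ₗ
    (Matrix.mulVecLin ((g : GL ι F) : Matrix ι ι F) - LinearMap.id))
  have hS : ∀ x, x ∈ S ↔ ∀ g ∈ N, (g : Matrix ι ι F) *ᵥ x - x ∈ P := fun x => by
    simp only [S, Submodule.mem_iInf, LinearMap.mem_ker, LinearMap.comp_apply, LinearMap.sub_apply,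
      Matrix.mulVecLin_apply, LinearMap.id_apply, Submodule.mkQ_apply, Submodule.Quotient.mk_eq_zero,
      Subtype.forall]
  have huS : u ∈ S := (hS u).2 fun g hg => by
    rw [← Submodule.Quotient.mk_eq_zero P, ← Submodule.mkQ_apply, map_sub, ← hact ⟨g, hg⟩, huq, sub_eq_zero]
    exact congrArg Subtype.val (hq ⟨g, hg⟩)
  have huP : u ∉ P := fun h => hq0 (Subtype.ext (by
    rw [← huq, Submodule.mkQ_apply, (Submodule.Quotient.mk_eq_zero P).2 h]; rfl))
  have hsymm := symm_of_alt h2 halt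
  obtain ⟨b, hb⟩ := exists_one_of_ne h2 halt hnd ha
  obtain ⟨e, hea, hue⟩ : ∃ e, B e a = 0 ∧ B u e ≠ 0 := by
    by_contra hc
    push Not at hc
    refine huP (Submodule.mem_span_singleton.2 ⟨B u b, ?_⟩)
    refine (sub_eq_zero.1 (hnd _ fun x => ?_)).symm
    have h := hc (x - B x a • b) (by simp [hb])
    simp only [map_sub, map_smul, smul_eq_mul, LinearMap.sub_apply, LinearMap.smul_apply] at h ⊢
    rw [hsymm a x]
    linear_combination h
  have hmove : ∀ d, B d a = 0 → B u d ≠ 0 → d ∈ S := by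
    intro d hda hud
    obtain ⟨t, ht⟩ := exists_gl_of_invol
      (LinearMap.id + (B.flip d).smulRight d) (fun x => funext fun i => by
        simp [halt]
        linear_combination (B x d * d i) * h2)
    have htv : ∀ x, (t : Matrix ι ι F) *ᵥ x = x + B x d • d := fun x => by rw [ht]; simp
    have htH : t ∈ H := (hH t).2 ⟨fun x y => by
      simp only [htv, map_add, map_smul, LinearMap.add_apply, LinearMap.smul_apply, halt, smul_eq_mul,
        hsymm d y]
      linear_combination (B x d * B y d) * h2, by rw [htv, hsymm a d, hda, zero_smul, add_zero]⟩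
    have h1 : (t : Matrix ι ι F) *ᵥ u ∈ S := (hS _).2 fun g hg => by
      have h := (hS u).1 huS _ (hnorm t⁻¹ (H.inv_mem htH) g hg)
      obtain ⟨c, hc⟩ := Submodule.mem_span_singleton.1 h
      refine Submodule.mem_span_singleton.2 ⟨c, ?_⟩
      have := congrArg (fun x => (t : Matrix ι ι F) *ᵥ x) hc
      simp only [inv_inv, Matrix.mulVec_sub, Matrix.mulVec_smul, Units.val_mul, Matrix.mulVec_mulVec,
        ((hH t).1 htH).2] at this
      rw [this, ← mul_assoc, ← mul_assoc, ← Units.val_mul, mul_inv_cancel, Units.val_one, one_mul,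
        Matrix.mulVec_mulVec]
    rw [htv] at h1
    have := S.sub_mem h1 huS
    rwa [add_sub_cancel_left, Submodule.smul_mem_iff _ hud] at this
  refine (hS v).1 ?_ g hg
  by_cases huv : B u v = 0
  · have := S.sub_mem (hmove (v + e) (by simp [hv, hea]) (by simp [huv, hue])) (hmove e hea hue)
    rwa [add_sub_cancel_right] at this
  · exact hmove v hv huv

include h2 halt hnd hH in
theorem radical_form (hdim : 4 ≤ Fintype.card ι) (ha : a ≠ 0) (hb : B b a = 1) {N : Subgroup (GL ι F)}
    (hNH : N ≤ H) (hN : IsPGroup 2 N) (hnorm : ∀ h ∈ H, ∀ g ∈ N, h * g * h⁻¹ ∈ N) {g : GL ι F}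
    (hg : g ∈ N) (v : ι → F) : (g : Matrix ι ι F) *ᵥ v = v + B v a • ((g : Matrix ι ι F) *ᵥ b - b) +
      (B v ((g : Matrix ι ι F) *ᵥ b - b) + B b ((g : Matrix ι ι F) *ᵥ b) * B v a) • a := by
  obtain ⟨hgB, hga⟩ := (hH g).1 (hNH hg)
  have hsymm := symm_of_alt h2 halt
  set v' := v - B v a • b with hv'
  have hv'a : B v' a = 0 := by simp [hv', hb]
  obtain ⟨l, hl⟩ := Submodule.mem_span_singleton.1 (radical_act h2 halt hnd H hH hdim ha hNH hN hnorm hg hv'a)
  have hgv' : (g : Matrix ι ι F) *ᵥ v' = v' + l • a := by rw [hl]; abel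
  have hagb : B a ((g : Matrix ι ι F) *ᵥ b) = 1 := by
    have := hgB b a
    rw [hga, hb] at this
    rw [hsymm, this]
  have hlv : l = B v' b + B v' ((g : Matrix ι ι F) *ᵥ b) := by
    have := hgB v' b
    rw [hgv', map_add, LinearMap.add_apply, map_smul, LinearMap.smul_apply, hagb, smul_eq_mul,
      mul_one] at this
    linear_combination this - B v' ((g : Matrix ι ι F) *ᵥ b) * h2
  have e : (g : Matrix ι ι F) *ᵥ v = (v' + l • a) + B v a • ((g : Matrix ι ι F) *ᵥ b) := by
    rw [← hgv', ← Matrix.mulVec_smul, ← Matrix.mulVec_add, hv', sub_add_cancel]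
  rw [e, hlv, hv']
  simp only [map_sub, map_smul, LinearMap.sub_apply, LinearMap.smul_apply, smul_eq_mul, halt]
  match_scalars
  · rfl
  · ring
  · linear_combination (B v b - B v a * B b ((g : Matrix ι ι F) *ᵥ b)) * h2
  · ring

include h2 halt hnd hH in
/-- The standing hypotheses from a complement to the transvections. -/
theorem setting_of_complement (hdim : 4 ≤ Fintype.card ι) (ha : a ≠ 0) {N : Subgroup (GL ι F)}
    (hNH : N ≤ H) (hN : IsPGroup 2 N) (hnorm : ∀ h ∈ H, ∀ g ∈ N, h * g * h⁻¹ ∈ N)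
    {X : Subgroup (GL ι F)} (hXN : X ≤ N) (hcard : Nat.card X = Fintype.card F ^ (Fintype.card ι - 2))
    (hntv : ∀ x ∈ X, ((x : Matrix ι ι F) - 1).rank ≠ 1) {L : Subgroup (GL ι F)} (hXL : X ≤ L)
    (hiso : ∀ g ∈ L, ∀ u v, B ((g : Matrix ι ι F) *ᵥ u) ((g : Matrix ι ι F) *ᵥ v) = B u v)
    (hirr : ∀ u, u ≠ 0 → ∃ p, Orb L a p ∧ B p u ≠ 0) :
    Setting L B a ∧ ∀ x ∈ X, ∃ w c, ∀ v,
      (x : Matrix ι ι F) *ᵥ v = v + B v a • w + (B v w + c * B v a) • a := by
  classical
  obtain ⟨b, hb⟩ := exists_one_of_ne h2 halt hnd ha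
  have hform := fun g (hg : g ∈ X) => radical_form h2 halt hnd H hH hdim ha hb hNH hN hnorm (hXN hg)
  have hS0 : ∀ x : ι → F, x + x = 0 := fun x => funext fun i => by
    simp only [Pi.add_apply, Pi.zero_apply]; linear_combination x i * h2
  refine ⟨⟨h2, halt, hnd, hiso, ha, ?_, hirr⟩, fun x hx => ⟨_, _, hform x hx⟩⟩
  set P := Submodule.span F ({a} : Set (ι → F)) with hP
  set U : Submodule F (ι → F) := LinearMap.ker (B.flip a) with hU
  have hmemU : ∀ x, x ∈ U ↔ B x a = 0 := fun x => by rw [hU, LinearMap.mem_ker]; rfl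
  set W := U.map P.mkQ with hW
  have hd : ∀ g ∈ X, (g : Matrix ι ι F) *ᵥ b - b ∈ U := fun g hg => by
    obtain ⟨hgB, hga⟩ := (hH g).1 (hNH (hXN hg))
    have := hgB b a
    rw [hga] at this
    rw [hmemU, map_sub, LinearMap.sub_apply, this, sub_self]
  let φ : X → W := fun g => ⟨P.mkQ (((g : GL ι F) : Matrix ι ι F) *ᵥ b - b), ⟨_, hd g g.2, rfl⟩⟩
  have hinj : Function.Injective φ := by
    intro g g' e
    have e' := congrArg Subtype.val e
    simp only [φ, Submodule.mkQ_apply, Submodule.Quotient.eq] at e'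
    obtain ⟨t, ht⟩ := Submodule.mem_span_singleton.1 e'
    set k := (g' : GL ι F)⁻¹ * g with hk
    have hkX : k ∈ X := X.mul_mem (X.inv_mem g'.2) g.2
    have hkb : (k : Matrix ι ι F) *ᵥ b - b = t • a := by
      have hga := ((hH _).1 (hNH (hXN (X.inv_mem g'.2)))).2
      have h := congrArg (fun x => (((g' : GL ι F)⁻¹ : GL ι F) : Matrix ι ι F) *ᵥ x) ht
      simp only [Matrix.mulVec_smul, Matrix.mulVec_sub, inv_apply, hga] at h
      rw [hk, Units.val_mul, ← Matrix.mulVec_mulVec, h]
      abel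
    set c := B b ((k : Matrix ι ι F) *ᵥ b)
    have hkv : ∀ v, (k : Matrix ι ι F) *ᵥ v = v + (c * B v a) • a := fun v => by
      rw [hform k hkX v, hkb, map_smul, smul_eq_mul]
      linear_combination (norm := module) hS0 ((t * B v a) • a)
    rw [← Subtype.coe_inj]
    have hc : c = 0 := by
      by_contra hc
      refine hntv k hkX ?_
      have e1 : Matrix.mulVecLin ((k : Matrix ι ι F) - 1) = (c • B.flip a).smulRight a :=
        LinearMap.ext fun v => by simp [Matrix.sub_mulVec, hkv]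
      rw [Matrix.rank, e1, show LinearMap.range ((c • B.flip a).smulRight a) = P from ?_, hP,
        finrank_span_singleton ha]
      refine le_antisymm ?_ ((Submodule.span_singleton_le_iff_mem _ _).2 ⟨c⁻¹ • b, ?_⟩)
      · rintro _ ⟨v, rfl⟩
        exact Submodule.smul_mem _ _ (Submodule.mem_span_singleton_self a)
      · simp [hb, hc]
    have hk1 : k = 1 := Units.ext (Matrix.ext_of_mulVec_single fun i => by
      rw [hkv, hc, Units.val_one, Matrix.one_mulVec]; simp)
    rw [hk] at hk1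
    exact (inv_mul_eq_one.1 hk1).symm
  have hcardW : Nat.card W = Nat.card X := by
    rw [hcard, Module.natCard_eq_pow_finrank (K := F), Nat.card_eq_fintype_card]
    congr 1
    have e1 := LinearMap.finrank_range_add_finrank_ker (B.flip a)
    rw [LinearMap.range_eq_top.2 (fun t => ⟨t • b, by simp [hb]⟩), finrank_top, finrank_self,
      finrank_fintype_fun_eq_card, ← hU] at e1
    have e3 := LinearMap.finrank_range_add_finrank_ker (P.mkQ.domRestrict U)
    rw [LinearMap.range_domRestrict, LinearMap.ker_domRestrict, Submodule.ker_mkQ] at e3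
    have hle : P ≤ U := (Submodule.span_singleton_le_iff_mem _ _).2 ((hmemU a).2 (halt a))
    rw [(Submodule.comapSubtypeEquivOfLe hle).finrank_eq, hP, finrank_span_singleton ha, ← hP, ← hW] at e3
    omega
  have hbij := (Nat.bijective_iff_injective_and_card φ).2 ⟨hinj, hcardW.symm⟩
  intro w hw
  obtain ⟨g, hg⟩ := hbij.2 ⟨P.mkQ w, ⟨w, (hmemU w).2 hw, rfl⟩⟩
  have e := congrArg Subtype.val hg
  simp only [φ, Submodule.mkQ_apply, Submodule.Quotient.eq] at e
  obtain ⟨t, ht⟩ := Submodule.mem_span_singleton.1 e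
  refine ⟨B b (((g : GL ι F) : Matrix ι ι F) *ᵥ b), g, hXL g.2, fun v => ?_⟩
  rw [hform g g.2 v, show ((g : GL ι F) : Matrix ι ι F) *ᵥ b - b = w + t • a by rw [ht]; abel]
  simp only [map_add, map_smul, smul_eq_mul]
  linear_combination (norm := module) hS0 ((t * B v a) • a)

end CfsgLib.SiegelTwo
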